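import Mathlib
import Cfsg.Prelude.Def_FusionSystem
import Cfsg.Agent.Lib.Helper84.Hyperfocal
import Cfsg.Agent.Lib.Helper84.FusionRS

set_option autoImplicit false

namespace Cfsg.Agent.Lib.Helper84

open Cfsg Cfsg.FusionSystem
open scoped Pointwise

section
variable {G : Type*} [Group G]

/-- an automorphism of `p'`-order induced by conjugation by `g` is induced by a `p'`-power of `g`. -/
theorem exists_pprime_pow_lift [Finite G] {p : ℕ} [Fact p.Prime] {P : Subgroup G}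
    (α : MulAut P) (hα : Nat.Coprime (orderOf α) p) (g : G)
    (h : ∀ x : P, ((α x : P) : G) = g * x * g⁻¹) :
    ∃ k : ℕ, Nat.Coprime (orderOf (g ^ k)) p ∧ ∀ x : P, ((α x : P) : G) = g ^ k * x * (g ^ k)⁻¹ := by
  have hp : p.Prime := Fact.out
  have hpos : orderOf g ≠ 0 := (orderOf_pos g).ne'
  obtain ⟨a, m, hm, hgm⟩ := Nat.exists_eq_pow_mul_and_not_dvd hpos p hp.ne_one
  have hcop : (p ^ a).Coprime (orderOf α) := Nat.Coprime.pow_left a hα.symm
  obtain ⟨t, ht⟩ := exists_pow_eq_self_of_coprime hcop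
  refine ⟨p ^ a * t, ?_, fun x => ?_⟩
  · have h1 : orderOf (g ^ (p ^ a)) = m := by
      rw [orderOf_pow, hgm]
      have hg : Nat.gcd (p ^ a * m) (p ^ a) = p ^ a := Nat.gcd_eq_right (dvd_mul_right _ _)
      rw [hg, Nat.mul_div_cancel_left _ (pow_pos hp.pos a)]
    have h2 : orderOf ((g ^ (p ^ a)) ^ t) ∣ m := h1 ▸ orderOf_pow_dvd t
    rw [pow_mul]
    exact Nat.Coprime.coprime_dvd_left h2 ((Nat.Prime.coprime_iff_not_dvd hp).2 hm).symm
  · have h3 := aut_pow_apply α g h (p ^ a * t) x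
    rw [pow_mul, ht] at h3
    exact h3

/-- In a `p`-normal group, `N_G(Z(P))` controls fusion in the Sylow `p`-subgroup `P`. -/
theorem exists_normalizer_center_conj [Finite G] {p : ℕ} [Fact p.Prime] (P : Sylow p G)
    (hn : ∀ Q : Sylow p G, (P : Subgroup G) ⊓ Subgroup.centralizer (P : Set G) ≤ (Q : Subgroup G) →
      (Q : Subgroup G) ⊓ Subgroup.centralizer (Q : Set G) =
        (P : Subgroup G) ⊓ Subgroup.centralizer (P : Set G))
    {D : Subgroup G} (hD : D ≤ P) {g : G} (hg : ∀ d ∈ D, g * d * g⁻¹ ∈ (P : Subgroup G)) :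
    ∃ n ∈ Subgroup.normalizer
        (((P : Subgroup G) ⊓ Subgroup.centralizer (P : Set G) : Subgroup G) : Set G),
      ∀ d ∈ D, n * d * n⁻¹ = g * d * g⁻¹ := by
  have hWp : IsPGroup p ((P : Subgroup G) ⊓ Subgroup.centralizer (P : Set G) : Subgroup G) :=
    P.2.to_le inf_le_left
  have hWC : (P : Subgroup G) ⊓ Subgroup.centralizer (P : Set G) ≤
      Subgroup.centralizer (D : Set G) := by
    intro w hw
    rw [Subgroup.mem_centralizer_iff]
    intro d hd
    exact (Subgroup.mem_centralizer_iff.1 (Subgroup.mem_inf.1 hw).2) d (hD hd)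
  have hWgC : ∀ w ∈ (P : Subgroup G) ⊓ Subgroup.centralizer (P : Set G),
      g⁻¹ * w * g ∈ Subgroup.centralizer (D : Set G) := by
    intro w hw
    rw [Subgroup.mem_centralizer_iff]
    intro d hd
    have h1 := (Subgroup.mem_centralizer_iff.1 (Subgroup.mem_inf.1 hw).2) (g * d * g⁻¹) (hg d hd)
    calc d * (g⁻¹ * w * g) = g⁻¹ * ((g * d * g⁻¹) * w) * g := by group
      _ = g⁻¹ * (w * (g * d * g⁻¹)) * g := by rw [h1]
      _ = g⁻¹ * w * g * d := by group
  have hW'p : IsPGroup p (((P : Subgroup G) ⊓ Subgroup.centralizer (P : Set G)).subgroupOf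
      (Subgroup.centralizer (D : Set G))) := hWp.comap_subtype
  obtain ⟨R, hR⟩ := hW'p.exists_le_sylow
  have hUp : IsPGroup p ((((P : Subgroup G) ⊓ Subgroup.centralizer (P : Set G)).map
      (MulAut.conj g⁻¹).toMonoidHom).subgroupOf (Subgroup.centralizer (D : Set G))) :=
    (hWp.map _).comap_subtype
  obtain ⟨c, hc⟩ := exists_conj_le_sylow R hUp
  have hRp : IsPGroup p ((R : Subgroup (Subgroup.centralizer (D : Set G))).map
      (Subgroup.subtype _)) := R.2.map _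
  obtain ⟨Q, hQ⟩ := hRp.exists_le_sylow
  have hWQ : (P : Subgroup G) ⊓ Subgroup.centralizer (P : Set G) ≤ (Q : Subgroup G) := by
    intro w hw
    exact hQ ⟨⟨w, hWC hw⟩, hR (Subgroup.mem_subgroupOf.2 hw), rfl⟩
  have hZQ := hn Q hWQ
  have hconjQ : ∀ w ∈ (P : Subgroup G) ⊓ Subgroup.centralizer (P : Set G),
      ((c : G) * g⁻¹) * w * ((c : G) * g⁻¹)⁻¹ ∈ (Q : Subgroup G) := by
    intro w hw
    have hu : (⟨g⁻¹ * w * g, hWgC w hw⟩ : Subgroup.centralizer (D : Set G)) ∈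
        (((P : Subgroup G) ⊓ Subgroup.centralizer (P : Set G)).map
          (MulAut.conj g⁻¹).toMonoidHom).subgroupOf (Subgroup.centralizer (D : Set G)) := by
      rw [Subgroup.mem_subgroupOf]
      exact ⟨w, hw, by simp⟩
    have h1 := hc _ hu
    have h2 : ((c * ⟨g⁻¹ * w * g, hWgC w hw⟩ * c⁻¹ : Subgroup.centralizer (D : Set G)) : G) ∈
        (Q : Subgroup G) := hQ ⟨_, h1, rfl⟩
    have e : ((c : G) * g⁻¹) * w * ((c : G) * g⁻¹)⁻¹ = (c : G) * (g⁻¹ * w * g) * (c : G)⁻¹ := by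
      group
    rw [e]
    exact h2
  -- h := c g⁻¹ normalizes W
  have hWQ' : (P : Subgroup G) ⊓ Subgroup.centralizer (P : Set G) ≤
      ((((c : G) * g⁻¹)⁻¹ • Q : Sylow p G) : Subgroup G) := by
    intro w hw
    rw [Sylow.coe_subgroup_smul, Subgroup.mem_smul_pointwise_iff_exists]
    refine ⟨_, hconjQ w hw, ?_⟩
    simp [MulAut.smul_def, mul_assoc]
  have hZQ' := hn _ hWQ'
  have hN : (c : G) * g⁻¹ ∈ Subgroup.normalizer
      (((P : Subgroup G) ⊓ Subgroup.centralizer (P : Set G) : Subgroup G) : Set G) := by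
    apply mem_normalizer_of_finite_of_conj_mem
    intro w hw
    rw [← hZQ]
    refine Subgroup.mem_inf.2 ⟨hconjQ w hw, ?_⟩
    rw [Subgroup.mem_centralizer_iff]
    intro q hq
    have hw' : w ∈ ((((c : G) * g⁻¹)⁻¹ • Q : Sylow p G) : Subgroup G) ⊓
        Subgroup.centralizer ((((c : G) * g⁻¹)⁻¹ • Q : Sylow p G) : Set G) := by
      rw [hZQ']; exact hw
    have hq' : ((c : G) * g⁻¹)⁻¹ * q * ((c : G) * g⁻¹) ∈
        ((((c : G) * g⁻¹)⁻¹ • Q : Sylow p G) : Subgroup G) := by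
      rw [Sylow.coe_subgroup_smul, Subgroup.mem_smul_pointwise_iff_exists]
      exact ⟨q, hq, by simp [MulAut.smul_def, mul_assoc]⟩
    have h3 := (Subgroup.mem_centralizer_iff.1 (Subgroup.mem_inf.1 hw').2) _ hq'
    calc q * (((c : G) * g⁻¹) * w * ((c : G) * g⁻¹)⁻¹)
        = ((c : G) * g⁻¹) * ((((c : G) * g⁻¹)⁻¹ * q * ((c : G) * g⁻¹)) * w) *
          ((c : G) * g⁻¹)⁻¹ := by group
      _ = ((c : G) * g⁻¹) * (w * (((c : G) * g⁻¹)⁻¹ * q * ((c : G) * g⁻¹))) *
          ((c : G) * g⁻¹)⁻¹ := by rw [h3]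
      _ = ((c : G) * g⁻¹) * w * ((c : G) * g⁻¹)⁻¹ * q := by group
  refine ⟨((c : G) * g⁻¹)⁻¹, Subgroup.inv_mem _ hN, fun d hd => ?_⟩
  have hcd := (Subgroup.mem_centralizer_iff.1 c.2) d hd
  calc ((c : G) * g⁻¹)⁻¹ * d * (((c : G) * g⁻¹)⁻¹)⁻¹ = g * ((c : G)⁻¹ * (d * c)) * g⁻¹ := by group
    _ = g * ((c : G)⁻¹ * (c * d)) * g⁻¹ := by rw [hcd]
    _ = g * d * g⁻¹ := by group

/-- Grün's second theorem (in the `O^p` form). -/
theorem gruen_pnormal [Finite G] {p : ℕ} [Fact p.Prime] (P : Sylow p G)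
    (hn : ∀ Q : Sylow p G, (P : Subgroup G) ⊓ Subgroup.centralizer (P : Set G) ≤ (Q : Subgroup G) →
      (Q : Subgroup G) ⊓ Subgroup.centralizer (Q : Set G) =
        (P : Subgroup G) ⊓ Subgroup.centralizer (P : Set G))
    (V : Subgroup G)
    (hV : Subgroup.normalizer
      (((P : Subgroup G) ⊓ Subgroup.centralizer (P : Set G) : Subgroup G) : Set G) ≤ V) :
    (P : Subgroup G) ⊓ pResidual p G = (P : Subgroup G) ⊓ (pResidual p V).map V.subtype := by
  have hKV : (pResidual p V).map V.subtype ≤ pResidual p G := by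
    unfold pResidual
    rw [MonoidHom.map_closure, Subgroup.closure_le]
    rintro _ ⟨v, hv, rfl⟩
    apply Subgroup.subset_closure
    show Nat.Coprime (orderOf ((v : V) : G)) p
    rw [Subgroup.orderOf_coe]
    exact hv
  apply le_antisymm
  swap
  · exact inf_le_inf_left _ hKV
  refine le_inf inf_le_left ?_
  refine (le_hyperfocal p P).trans ?_
  have hPV : (P : Subgroup G) ≤ V := by
    refine le_trans ?_ hV
    intro x hx
    apply mem_normalizer_of_finite_of_conj_mem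
    intro w hw
    have hwP := (Subgroup.mem_inf.1 hw).1
    have hwC := Subgroup.mem_centralizer_iff.1 (Subgroup.mem_inf.1 hw).2
    refine Subgroup.mem_inf.2 ⟨Subgroup.mul_mem _ (Subgroup.mul_mem _ hx hwP) (Subgroup.inv_mem _ hx), ?_⟩
    rw [Subgroup.mem_centralizer_iff]
    intro y hy
    have h1 := hwC (x⁻¹ * y * x) (Subgroup.mul_mem _ (Subgroup.mul_mem _ (Subgroup.inv_mem _ hx) hy) hx)
    calc y * (x * w * x⁻¹) = x * ((x⁻¹ * y * x) * w) * x⁻¹ := by group
      _ = x * (w * (x⁻¹ * y * x)) * x⁻¹ := by rw [h1]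
      _ = x * w * x⁻¹ * y := by group
  have hKn : (pResidual p V).Normal := Helper2.pResidual_normal p
  have hKconj : ∀ v ∈ V, ∀ k ∈ (pResidual p V).map V.subtype,
      v * k * v⁻¹ ∈ (pResidual p V).map V.subtype := by
    rintro v hv _ ⟨k, hk, rfl⟩
    exact ⟨⟨v, hv⟩ * k * ⟨v, hv⟩⁻¹, hKn.conj_mem k hk _, rfl⟩
  unfold hyperfocalSubgroup
  rw [Subgroup.closure_le]
  rintro _ ⟨P₀, α, x, hP₀, hα, rfl⟩
  have key : ∀ β : (groupFusionSystem (P : Subgroup G)).autGroup P₀,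
      β ∈ pResidual p ((groupFusionSystem (P : Subgroup G)).autGroup P₀) →
      ∀ x : P₀, (x : G)⁻¹ * (((β : MulAut P₀) x : P₀) : G) ∈ (pResidual p V).map V.subtype := by
    intro β hβ
    unfold pResidual at hβ
    induction hβ using Subgroup.closure_induction with
    | mem β hβ =>
      intro x
      have hβF := (mem_autGroup_iff _ hP₀ (β : MulAut P₀)).1 β.2
      obtain ⟨-, hβP, g, hg⟩ := hβF
      have hord : Nat.Coprime (orderOf (β : MulAut P₀)) p := by
        rw [Subgroup.orderOf_coe]; exact hβ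
      have hgP : ∀ d ∈ P₀, g * d * g⁻¹ ∈ (P : Subgroup G) := by
        intro d hd
        have := hβP ⟨d, hd⟩
        rw [hg] at this
        exact this
      obtain ⟨n, hnN, hnd⟩ := exists_normalizer_center_conj P hn hP₀ hgP
      have hg' : ∀ y : P₀, (((β : MulAut P₀) y : P₀) : G) = n * y * n⁻¹ := by
        intro y
        rw [hnd y y.2]
        exact hg y
      obtain ⟨k, hkc, hk⟩ := exists_pprime_pow_lift (β : MulAut P₀) hord n hg'
      rw [hk x]
      have hnV : n ^ k ∈ V := Subgroup.pow_mem _ (hV hnN) k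
      have hnK : n ^ k ∈ (pResidual p V).map V.subtype := by
        refine ⟨⟨n ^ k, hnV⟩, Subgroup.subset_closure ?_, rfl⟩
        show Nat.Coprime (orderOf (⟨n ^ k, hnV⟩ : V)) p
        rw [← Subgroup.orderOf_coe]
        exact hkc
      have e : (x : G)⁻¹ * (n ^ k * x * (n ^ k)⁻¹) =
          ((x : G)⁻¹ * n ^ k * ((x : G)⁻¹)⁻¹) * (n ^ k)⁻¹ := by group
      rw [e]
      exact Subgroup.mul_mem _ (hKconj _ (Subgroup.inv_mem _ (hPV (hP₀ x.2))) _ hnK)
        (Subgroup.inv_mem _ hnK)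
    | one => intro x; simp
    | mul β γ _ _ hβ hγ =>
      intro x
      have e : (x : G)⁻¹ * ((((β * γ : (groupFusionSystem (P : Subgroup G)).autGroup P₀) :
          MulAut P₀) x : P₀) : G) =
          ((x : G)⁻¹ * (((γ : MulAut P₀) x : P₀) : G)) *
            ((((γ : MulAut P₀) x : P₀) : G)⁻¹ * (((β : MulAut P₀) ((γ : MulAut P₀) x) : P₀) : G)) := by
        show (x : G)⁻¹ * (((β : MulAut P₀) ((γ : MulAut P₀) x) : P₀) : G) = _
        group
      rw [e]
      exact Subgroup.mul_mem _ (hγ x) (hβ _)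
    | inv β _ hβ =>
      intro x
      have h1 := hβ ((β : MulAut P₀)⁻¹ x)
      rw [MulAut.apply_inv_self] at h1
      have e : (x : G)⁻¹ * ((((β⁻¹ : (groupFusionSystem (P : Subgroup G)).autGroup P₀) :
          MulAut P₀) x : P₀) : G) = ((((β : MulAut P₀)⁻¹ x : P₀) : G)⁻¹ * (x : G))⁻¹ := by
        show (x : G)⁻¹ * ((((β : MulAut P₀)⁻¹ x : P₀) : G)) = _
        group
      rw [e]
      exact Subgroup.inv_mem _ h1
  exact key α hα x

end

end Cfsg.Agent.Lib.Helper84
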