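import Mathlib
import Cfsg.Agent.Lib.Helper84.Model1

set_option autoImplicit false

/-!
# Groups acting on a cover

A group `G` containing `S` that acts on a cover `Y` by covering permutations, with the action of `S`
being left translation, maps onto the group `Gm` of the cover; the map is an isomorphism when `G`
is an extension of `Γ` by the kernel of `κ`.
-/

namespace Cfsg.Agent.Lib.Helper84
namespace Model

universe u v w x

variable {S Γ : Type u} [Group S] [Group Γ]
variable {κ : S →* Γ} {D : KerData κ} {Y : Type v} [MulAction (S × S) Y] [Finite Y]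

/-- the map to `Gm` determined by an action through covering permutations. -/
def thetaOfAction (C : Cover κ D Y) {G : Type x} [Group G] (πG : G →* Γ) (act : G →* Equiv.Perm Y)
    (hact : ∀ g, (πG g, act g) ∈ Ehat C) : G →* Gm C :=
  (QuotientGroup.mk' (Kn C)).comp ((πG.prod act).codRestrict (Ehat C) hact)

theorem proj_thetaOfAction (C : Cover κ D Y) {G : Type x} [Group G] (πG : G →* Γ)
    (act : G →* Equiv.Perm Y) (hact : ∀ g, (πG g, act g) ∈ Ehat C) (g : G) :
    proj C (thetaOfAction C πG act hact g) = πG g := rfl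

theorem thetaOfAction_iota (C : Cover κ D Y) {G : Type x} [Group G] (πG : G →* Γ)
    (act : G →* Equiv.Perm Y) (hact : ∀ g, (πG g, act g) ∈ Ehat C) (ι : S →* G)
    (h1 : ∀ x, πG (ι x) = κ x) (h2 : ∀ (x : S) (y : Y), act (ι x) y = (x, (1 : S)) • y) (x : S) :
    thetaOfAction C πG act hact (ι x) = iota C x := by
  show (QuotientGroup.mk ((πG.prod act).codRestrict (Ehat C) hact (ι x)) : Gm C) =
    QuotientGroup.mk (iotaHat C x)
  congr 1
  apply Subtype.ext
  apply Prod.ext
  · exact h1 x
  · apply Equiv.ext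
    intro y
    exact h2 x y

theorem bijective_of_hom (C : Cover κ D Y)
    (hcop : (Nat.card κ.ker).Coprime (Nat.card (Orb S Y)))
    {G : Type x} [Group G] (ι : S →* G) (Θ : G →* Gm C)
    (hΘι : ∀ x, Θ (ι x) = iota C x)
    (hsurj : ∀ γ : Γ, ∃ g : G, proj C (Θ g) = γ)
    (hker : ∀ g : G, proj C (Θ g) = 1 → ∃ z : κ.ker, g = ι (z : S)) : Function.Bijective Θ := by
  constructor
  · rw [injective_iff_map_eq_one]
    intro g hg
    obtain ⟨z, rfl⟩ := hker g (by rw [hg, map_one])
    rw [hΘι] at hg
    have h1 := iota_injective C hcop (hg.trans (map_one _).symm)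
    rw [h1, map_one]
  · intro x
    obtain ⟨g, hg⟩ := hsurj (proj C x)
    have h1 : proj C ((Θ g)⁻¹ * x) = 1 := by rw [map_mul, map_inv, hg, inv_mul_cancel]
    obtain ⟨z, hz⟩ := exists_of_proj_eq_one C hcop _ h1
    refine ⟨g * ι (z : S), ?_⟩
    rw [map_mul, hΘι, ← hz, mul_inv_cancel_left]

end Model
end Cfsg.Agent.Lib.Helper84
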