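import Mathlib
import Cfsg.Prelude.Def_FusionSystem
import Cfsg.Agent.Lib.Helper84.Model2
import Cfsg.Agent.Lib.Helper84.Model4
import Cfsg.Agent.Lib.Helper84.PCoreBasic
import Cfsg.Agent.Lib.Helper85.Realized
import Cfsg.Agent.Lib.Helper85.FusionNormal

set_option autoImplicit false

/-!
# Uniqueness of models

A model `G` of `F` in which the image of the normal centric subgroup `Q` is normal and
self-centralizing is itself a cover of `Aut_F(Q)`; any two such covers are isomorphic as bisets, and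
each such group is recovered from its cover.
-/

namespace Cfsg.Agent.Lib.Helper84
namespace Model

open Cfsg Cfsg.FusionSystem

universe u v w

variable {Ω : Type u} [Group Ω] {S : Subgroup Ω}

/-- `G` realizes `F`, the image of `Q` is normal in `G` and contains its centralizer. -/
structure ModelAt (F : FusionSystem S) {Q : Subgroup Ω} (h : NC S Q) {G : Type v} [Group G]
    (ι : S →* G) : Prop where
  real : F.IsRealizedBy ι
  norm : ∀ (g : G) (q : Q), ∃ q' : Q, ι ⟨q', h.le q'.2⟩ = g * ι ⟨q, h.le q.2⟩ * g⁻¹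
  cent : ∀ g : G, (∀ q : Q, g * ι ⟨q, h.le q.2⟩ = ι ⟨q, h.le q.2⟩ * g) →
    ∃ q : Q, g = ι ⟨q, h.le q.2⟩

section modelAt

variable {F : FusionSystem S} {Q : Subgroup Ω} {h : NC S Q} {G : Type v} [Group G] {ι : S →* G}

theorem ModelAt.exists_aut (M : ModelAt F h ι) (g : G) :
    ∃ γ : F.autGroup Q, ∀ q : Q,
      ι ⟨((γ : MulAut Q) q : Ω), h.le (Subtype.property _)⟩ = g * ι ⟨q, h.le q.2⟩ * g⁻¹ := by
  have hinj := M.real.1
  choose f hf using M.norm g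
  choose f' hf' using M.norm g⁻¹
  have hQinj : ∀ a b : Q, ι ⟨a, h.le a.2⟩ = ι ⟨b, h.le b.2⟩ → a = b := fun a b e =>
    Subtype.ext (congrArg (fun s : S => (s : Ω)) (hinj e))
  let α : MulAut Q :=
    { toFun := f
      invFun := f'
      left_inv := fun q => hQinj _ _ (by rw [hf', hf]; group)
      right_inv := fun q => hQinj _ _ (by rw [hf, hf']; group)
      map_mul' := fun a b => hQinj _ _ (by
        have e1 : (⟨((a * b : Q) : Ω), h.le (a * b).2⟩ : S) = ⟨a, h.le a.2⟩ * ⟨b, h.le b.2⟩ := rfl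
        have e2 : (⟨((f a * f b : Q) : Ω), h.le (f a * f b).2⟩ : S) =
            ⟨f a, h.le (f a).2⟩ * ⟨f b, h.le (f b).2⟩ := rfl
        rw [hf, e1, e2, map_mul, map_mul, hf, hf]
        group) }
  have hα : α ∈ F.autGroup Q := by
    rw [mem_autGroup_iff F h.le]
    exact (M.real.2 Q h.le _ (fun x => h.le (α x).2)).2 ⟨g, fun x => hf x⟩
  exact ⟨⟨α, hα⟩, fun q => hf q⟩

/-- the automorphism of `Q` induced by an element of `G`. -/
noncomputable def ModelAt.piG (M : ModelAt F h ι) (g : G) : F.autGroup Q :=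
  Classical.choose (M.exists_aut g)

theorem ModelAt.piG_spec (M : ModelAt F h ι) (g : G) (q : Q) :
    ι ⟨((M.piG g : MulAut Q) q : Ω), h.le (Subtype.property _)⟩ = g * ι ⟨q, h.le q.2⟩ * g⁻¹ :=
  Classical.choose_spec (M.exists_aut g) q

theorem ModelAt.piG_eq (M : ModelAt F h ι) (g : G) (γ : F.autGroup Q)
    (hγ : ∀ q : Q,
      ι ⟨((γ : MulAut Q) q : Ω), h.le (Subtype.property _)⟩ = g * ι ⟨q, h.le q.2⟩ * g⁻¹) :
    M.piG g = γ := by
  apply Subtype.ext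
  apply MulEquiv.ext
  intro q
  apply Subtype.ext
  have e := (M.piG_spec g q).trans (hγ q).symm
  exact congrArg (fun s : S => (s : Ω)) (M.real.1 e)

/-- `piG` as a homomorphism. -/
noncomputable def ModelAt.piHom (M : ModelAt F h ι) : G →* F.autGroup Q where
  toFun := M.piG
  map_one' := M.piG_eq 1 1 (fun q => by
    rw [one_mul, inv_one, mul_one]
    rfl)
  map_mul' := fun g g' => M.piG_eq (g * g') (M.piG g * M.piG g') (fun q => by
    have e1 := M.piG_spec g ((M.piG g' : MulAut Q) q)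
    have e2 := M.piG_spec g' q
    show ι ⟨((M.piG g : MulAut Q) ((M.piG g' : MulAut Q) q) : Ω), _⟩ = _
    rw [e1, e2]
    group)

theorem ModelAt.piHom_apply (M : ModelAt F h ι) (g : G) : M.piHom g = M.piG g := rfl

theorem ModelAt.piG_iota (M : ModelAt F h ι) (x : S) : M.piG (ι x) = kap F h x :=
  M.piG_eq (ι x) (kap F h x) (fun q => by
    rw [← map_inv, ← map_mul, ← map_mul]
    rfl)

theorem ModelAt.ker_piG (M : ModelAt F h ι) (g : G) (hg : M.piG g = 1) :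
    ∃ z : (kap F h).ker, g = ι (z : S) := by
  have hc : ∀ q : Q, g * ι ⟨q, h.le q.2⟩ = ι ⟨q, h.le q.2⟩ * g := by
    intro q
    have e := M.piG_spec g q
    rw [hg] at e
    have e' : ι ⟨q, h.le q.2⟩ = g * ι ⟨q, h.le q.2⟩ * g⁻¹ := e
    calc g * ι ⟨q, h.le q.2⟩ = g * ι ⟨q, h.le q.2⟩ * g⁻¹ * g := by group
      _ = ι ⟨q, h.le q.2⟩ * g := by rw [← e']
  obtain ⟨q₀, hq₀⟩ := M.cent g hc
  have hk : kap F h ⟨q₀, h.le q₀.2⟩ = 1 := by
    rw [kap_eq_one_iff]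
    intro q
    have e := hc q
    rw [hq₀, ← map_mul, ← map_mul] at e
    have e2 := congrArg (fun s : S => (s : Ω)) (M.real.1 e)
    have e3 : (q₀ : Ω) * q = q * q₀ := e2
    show (q₀ : Ω) * q * (q₀ : Ω)⁻¹ = q
    rw [e3, mul_inv_cancel_right]
  exact ⟨⟨⟨q₀, h.le q₀.2⟩, MonoidHom.mem_ker.2 hk⟩, hq₀⟩

end modelAt

/-- the two-sided action of `S` on `G`. -/
def biSmul {G : Type v} [Group G] (ι : S →* G) (u : S × S) (g : G) : G := ι u.1 * g * (ι u.2)⁻¹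

theorem biSmul_one {G : Type v} [Group G] (ι : S →* G) (g : G) : biSmul ι 1 g = g := by
  simp [biSmul]

theorem biSmul_mul {G : Type v} [Group G] (ι : S →* G) (u v : S × S) (g : G) :
    biSmul ι (u * v) g = biSmul ι u (biSmul ι v g) := by
  simp only [biSmul, Prod.fst_mul, Prod.snd_mul, map_mul]
  group

/-- `G` as a biset of `S`. -/
def BiY {G : Type v} [Group G] (_ι : S →* G) : Type v := G

instance BiY.mulAction {G : Type v} [Group G] (ι : S →* G) : MulAction (S × S) (BiY ι) where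
  smul := fun u y => biSmul (G := G) ι u y
  one_smul := fun y => biSmul_one (G := G) ι y
  mul_smul := fun u v y => biSmul_mul (G := G) ι u v y

theorem BiY.smul_def {G : Type v} [Group G] (ι : S →* G) (u : S × S) (y : BiY ι) :
    (u • y : BiY ι) = biSmul (G := G) ι u y := rfl

theorem aut_apply_inv {F : FusionSystem S} {Q : Subgroup Ω} (γ : F.autGroup Q) (q : Q) :
    (γ : MulAut Q) (((γ⁻¹ : F.autGroup Q) : MulAut Q) q) = q :=
  MulAut.apply_inv_self Q (γ : MulAut Q) q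

section cover

variable {F : FusionSystem S} {Q : Subgroup Ω} {h : NC S Q} {G : Type v} [Group G] {ι : S →* G}

theorem ModelAt.piG_mul (M : ModelAt F h ι) (g g' : G) : M.piG (g * g') = M.piG g * M.piG g' :=
  M.piHom.map_mul g g'

theorem ModelAt.piG_bi (M : ModelAt F h ι) (u : S × S) (g : G) :
    M.piG (biSmul ι u g) = kap F h u.1 * M.piG g * (kap F h u.2)⁻¹ := by
  show M.piHom (ι u.1 * g * (ι u.2)⁻¹) = _
  rw [map_mul, map_mul, map_inv, M.piHom_apply, M.piHom_apply, M.piHom_apply, M.piG_iota,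
    M.piG_iota]

theorem ModelAt.piG_surj (M : ModelAt F h ι) : Function.Surjective M.piG := by
  intro γ
  obtain ⟨g, hg⟩ := (M.real.2 Q h.le (Q.subtype.comp (γ : MulAut Q).toMonoidHom)
    (fun x => h.le ((γ : MulAut Q) x).2)).1 ((mem_autGroup_iff F h.le _).1 γ.2)
  exact ⟨g, M.piG_eq g γ hg⟩

theorem ModelAt.fibre_G (M : ModelAt F h ι) (g g' : G) (hgg : M.piG g = M.piG g') :
    ∃ z : S, kap F h z = 1 ∧ g' = biSmul ι (1, z) g := by
  have h1 : M.piG (g⁻¹ * g') = 1 := by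
    rw [M.piG_mul, ← M.piHom_apply, map_inv, M.piHom_apply, hgg, inv_mul_cancel]
  obtain ⟨z, hz⟩ := M.ker_piG _ h1
  refine ⟨(z : S)⁻¹, by rw [map_inv, MonoidHom.mem_ker.1 z.2, inv_one], ?_⟩
  show g' = ι 1 * g * (ι (z : S)⁻¹)⁻¹
  rw [map_one, one_mul, map_inv, inv_inv, ← hz, mul_inv_cancel_left]

theorem ModelAt.free_G (M : ModelAt F h ι) (s : S) (g : G) (hs : biSmul ι (1, s) g = g) :
    s = 1 := by
  have e : ι 1 * g * (ι s)⁻¹ = g := hs
  rw [map_one, one_mul] at e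
  have e2 : ι s = 1 := by
    have e3 : (ι s)⁻¹ = 1 := by
      calc (ι s)⁻¹ = g⁻¹ * (g * (ι s)⁻¹) := by group
        _ = 1 := by rw [e, inv_mul_cancel]
    exact inv_eq_one.1 e3
  exact M.real.1 (e2.trans (map_one ι).symm)

theorem ModelAt.left_ker_G (M : ModelAt F h ι) (z : (kap F h).ker) (g : G) :
    biSmul ι ((z : S), 1) g =
      biSmul ι (1, ((((kerData F h).A (M.piG g))⁻¹ z : (kap F h).ker) : S)⁻¹) g := by
  have e1 := M.piG_spec g ((((M.piG g)⁻¹ : F.autGroup Q) : MulAut Q) (zQ F h z))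
  have e2 : (⟨((M.piG g : MulAut Q) ((((M.piG g)⁻¹ : F.autGroup Q) : MulAut Q) (zQ F h z)) : Ω),
      h.le (Subtype.property _)⟩ : S) = (z : S) := by
    apply Subtype.ext
    show ((M.piG g : MulAut Q) ((((M.piG g)⁻¹ : F.autGroup Q) : MulAut Q) (zQ F h z)) : Ω) =
      ((z : S) : Ω)
    rw [aut_apply_inv]
    rfl
  have e3 : ((((kerData F h).A (M.piG g))⁻¹ z : (kap F h).ker) : S) =
      ⟨((((M.piG g)⁻¹ : F.autGroup Q) : MulAut Q) (zQ F h z) : Ω), h.le (Subtype.property _)⟩ := by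
    rw [← map_inv]
    rfl
  show ι (z : S) * g * (ι 1)⁻¹ =
    ι 1 * g * (ι ((((kerData F h).A (M.piG g))⁻¹ z : (kap F h).ker) : S)⁻¹)⁻¹
  rw [e3, map_one, inv_one, mul_one, one_mul, map_inv, inv_inv, ← e2, e1]
  group

/-- a model is a cover. -/
noncomputable def ModelAt.cover (M : ModelAt F h ι) : Cover (kap F h) (kerData F h) (BiY ι) where
  π := M.piG
  π_smul := fun a b y => M.piG_bi (a, b) y
  π_surj := M.piG_surj
  fibre := fun y y' hyy => M.fibre_G y y' hyy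
  free := fun s y hs => M.free_G s y hs
  left_ker := fun z y => M.left_ker_G z y

/-- left multiplication on the biset. -/
def BiY.lmul (ι : S →* G) : G →* Equiv.Perm (BiY ι) := MulAction.toPermHom G G

theorem lmul_aux1 (ι : S →* G) (g y : G) (s : S) :
    g * biSmul ι (1, s) y = biSmul ι (1, s) (g * y) := by
  simp only [biSmul, map_one, one_mul, mul_assoc]

theorem lmul_aux2 (ι : S →* G) (x : S) (y : G) : ι x * y = biSmul ι (x, 1) y := by
  simp only [biSmul, map_one, inv_one, mul_one]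

theorem BiY.lmul_smul (ι : S →* G) (g : G) (s : S) (y : BiY ι) :
    BiY.lmul ι g (((1 : S), s) • y) = ((1 : S), s) • BiY.lmul ι g y := lmul_aux1 ι g y s

theorem BiY.lmul_iota (ι : S →* G) (x : S) (y : BiY ι) :
    BiY.lmul ι (ι x) y = (x, (1 : S)) • y := lmul_aux2 ι x y

theorem ModelAt.piG_lmul (M : ModelAt F h ι) (g : G) (y : BiY ι) :
    M.cover.π (BiY.lmul ι g y) = M.piG g * M.cover.π y := M.piG_mul g y

theorem ModelAt.coprime [Finite S] [Finite G] {p : ℕ} [Fact p.Prime] (hS : IsPGroup p S)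
    (hF : F.IsSaturated p) (M : ModelAt F h ι) :
    (Nat.card (kap F h).ker).Coprime (Nat.card (Orb S (BiY ι))) := by
  have := finite_autGroup F h.le
  have : Finite (BiY ι) := ‹Finite G›
  rw [M.cover.card_orb]
  obtain ⟨k, hk⟩ := IsPGroup.iff_card.1 (hS.to_subgroup (kap F h).ker)
  rw [hk]
  exact Nat.Coprime.pow_left k
    ((Nat.Prime.coprime_iff_not_dvd Fact.out).2 (not_dvd_index_range hS hF h))

theorem ModelAt.exists_theta (M : ModelAt F h ι) {Y : Type w} [MulAction (S × S) Y] [Finite Y]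
    (C : Cover (kap F h) (kerData F h) Y)
    (hcop : (Nat.card (kap F h).ker).Coprime (Nat.card (Orb S Y)))
    (e : Y ≃ BiY ι) (he1 : ∀ (s : S) (y : Y), e (((1 : S), s) • y) = ((1 : S), s) • e y)
    (he2 : ∀ y, M.cover.π (e y) = C.π y)
    (he3 : ∀ (x : S) (y : Y), e ((x, (1 : S)) • y) = (x, (1 : S)) • e y) :
    ∃ Θ : G →* Gm C, Function.Bijective Θ ∧ ∀ x, Θ (ι x) = iota C x := by
  let act : G →* Equiv.Perm Y := (e.symm.permCongrHom.toMonoidHom).comp (BiY.lmul ι)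
  have hact_apply : ∀ g y, act g y = e.symm (BiY.lmul ι g (e y)) := fun g y => rfl
  have hsymm1 : ∀ (s : S) (y' : BiY ι), e.symm (((1 : S), s) • y') = ((1 : S), s) • e.symm y' := by
    intro s y'
    apply e.injective
    rw [he1, e.apply_symm_apply, e.apply_symm_apply]
  have hact : ∀ g, (M.piHom g, act g) ∈ Ehat C := by
    intro g
    refine ⟨fun s y => ?_, fun y => ?_⟩
    · show act g (((1 : S), s) • y) = ((1 : S), s) • act g y
      rw [hact_apply, hact_apply, he1, BiY.lmul_smul, hsymm1]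
    · show C.π (act g y) = M.piHom g * C.π y
      rw [hact_apply, ← he2, e.apply_symm_apply, M.piG_lmul, he2]
      rfl
  have hι : ∀ x, thetaOfAction C M.piHom act hact (ι x) = iota C x := by
    intro x
    apply thetaOfAction_iota
    · exact M.piG_iota
    · intro x y
      rw [hact_apply, BiY.lmul_iota, ← he3, e.symm_apply_apply]
  refine ⟨thetaOfAction C M.piHom act hact, ?_, hι⟩
  apply bijective_of_hom C hcop ι _ hι
  · intro γ
    obtain ⟨g, hg⟩ := M.piG_surj γ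
    exact ⟨g, hg⟩
  · intro g hg
    exact M.ker_piG g hg

end cover

section equiv

variable {F : FusionSystem S} {Q : Subgroup Ω} {h : NC S Q}
  {G₁ : Type v} {G₂ : Type w} [Group G₁] [Group G₂] {ι₁ : S →* G₁} {ι₂ : S →* G₂}

theorem ModelAt.stab_transfer (M₁ : ModelAt F h ι₁) (M₂ : ModelAt F h ι₂) (g₁ : G₁) :
    ∃ g₂ : G₂, M₂.piG g₂ = M₁.piG g₁ ∧ ∀ x s : S,
      biSmul ι₁ (x, 1) g₁ = biSmul ι₁ (1, s) g₁ → biSmul ι₂ (x, 1) g₂ = biSmul ι₂ (1, s) g₂ := by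
  have hinj₁ := M₁.real.1
  let P : Subgroup Ω :=
    Helper85.preSub ι₁ (ι₁.range.comap (MulAut.conj g₁⁻¹).toMonoidHom)
  have hPS : P ≤ S := Helper85.preSub_le _ _
  have hval : ∀ x : P, g₁⁻¹ * ι₁ ⟨x, hPS x.2⟩ * g₁⁻¹⁻¹ ∈ ι₁.range := fun x =>
    (Helper85.mem_preSub.1 x.2).2
  obtain ⟨ρ, hρS, hρ⟩ := Helper85.exists_lift_conj hinj₁ hPS g₁⁻¹ hval
  have hρF : ρ ∈ F.Hom P := (M₁.real.2 P hPS ρ hρS).2 ⟨g₁⁻¹, hρ⟩
  obtain ⟨g₂', hg₂'⟩ := (M₂.real.2 P hPS ρ hρS).1 hρF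
  have hmemP : ∀ x : S, g₁⁻¹ * ι₁ x * g₁ ∈ ι₁.range → (x : Ω) ∈ P := by
    intro x hx
    refine Helper85.mem_preSub.2 ⟨x.2, ?_⟩
    show g₁⁻¹ * ι₁ x * g₁⁻¹⁻¹ ∈ ι₁.range
    rw [inv_inv]
    exact hx
  refine ⟨g₂'⁻¹, ?_, ?_⟩
  · apply M₂.piG_eq
    intro q
    have e1 := M₁.piG_spec g₁ q
    have hq'P : (((M₁.piG g₁ : MulAut Q) q : Q) : Ω) ∈ P := by
      apply hmemP ⟨_, h.le (Subtype.property _)⟩
      rw [e1]
      exact ⟨⟨q, h.le q.2⟩, by group⟩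
    have e2 := hρ ⟨_, hq'P⟩
    have e3 : ρ ⟨_, hq'P⟩ = (q : Ω) := by
      have e3' : ι₁ ⟨ρ ⟨_, hq'P⟩, hρS _⟩ = ι₁ ⟨q, h.le q.2⟩ := by
        rw [e2]
        show g₁⁻¹ * ι₁ ⟨((M₁.piG g₁ : MulAut Q) q : Ω), _⟩ * g₁⁻¹⁻¹ = _
        rw [e1]
        group
      exact congrArg (fun s : S => (s : Ω)) (hinj₁ e3')
    have e4 := hg₂' ⟨_, hq'P⟩
    have e5 : ι₂ ⟨q, h.le q.2⟩ =
        g₂' * ι₂ ⟨((M₁.piG g₁ : MulAut Q) q : Ω), h.le (Subtype.property _)⟩ * g₂'⁻¹ := by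
      rw [← e4]
      congr 1
      exact Subtype.ext e3.symm
    rw [e5]
    group
  · intro x s hxs
    have e : ι₁ x * g₁ * (ι₁ 1)⁻¹ = ι₁ 1 * g₁ * (ι₁ s)⁻¹ := hxs
    rw [map_one, inv_one, mul_one, one_mul] at e
    have e1 : g₁⁻¹ * ι₁ x * g₁ = ι₁ s⁻¹ := by
      rw [mul_assoc, e, inv_mul_cancel_left, map_inv]
    have hxP : (x : Ω) ∈ P := hmemP x (by rw [e1]; exact ⟨_, rfl⟩)
    have e2 := hρ ⟨x, hxP⟩
    have e3 : (⟨ρ ⟨x, hxP⟩, hρS _⟩ : S) = s⁻¹ := by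
      apply hinj₁
      rw [e2]
      show g₁⁻¹ * ι₁ x * g₁⁻¹⁻¹ = _
      rw [inv_inv, e1]
    have e4 := hg₂' ⟨x, hxP⟩
    rw [e3] at e4
    have e5 : ι₂ s⁻¹ = g₂' * ι₂ x * g₂'⁻¹ := e4
    show ι₂ x * g₂'⁻¹ * (ι₂ 1)⁻¹ = ι₂ 1 * g₂'⁻¹ * (ι₂ s)⁻¹
    rw [map_one, inv_one, mul_one, one_mul, ← map_inv, e5]
    group

theorem ModelAt.equiv [Finite S] {p : ℕ} [Fact p.Prime] (hS : IsPGroup p S) (hF : F.IsSaturated p)
    [Finite G₁] [Finite G₂] (M₁ : ModelAt F h ι₁) (M₂ : ModelAt F h ι₂) :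
    ∃ φ : G₁ ≃* G₂, ∀ x : S, φ (ι₁ x) = ι₂ x := by
  have : Finite (BiY ι₁) := ‹Finite G₁›
  have : Finite (BiY ι₂) := ‹Finite G₂›
  have hcop := M₁.coprime hS hF
  obtain ⟨w, hw1, hw2, hw3⟩ := exists_twisted M₁.cover M₂.cover (MonoidHom.id S) (MonoidHom.id S) 1
    (fun x => by
      rw [mul_one, one_mul])
    (fun y => by
      obtain ⟨g₂, hg₂, hg₂'⟩ := M₁.stab_transfer M₂ y
      exact ⟨g₂, by rw [one_mul]; exact hg₂, fun x s hxs => hg₂' x s hxs⟩)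
  obtain ⟨Θ₁, hb₁, hι₁⟩ := M₁.exists_theta M₁.cover hcop (Equiv.refl _) (fun _ _ => rfl)
    (fun _ => rfl) (fun _ _ => rfl)
  obtain ⟨Θ₂, hb₂, hι₂⟩ := M₂.exists_theta M₁.cover hcop w hw1
    (fun y => by rw [hw2, one_mul]) hw3
  refine ⟨(MulEquiv.ofBijective Θ₁ hb₁).trans (MulEquiv.ofBijective Θ₂ hb₂).symm, fun x => ?_⟩
  show (MulEquiv.ofBijective Θ₂ hb₂).symm (Θ₁ (ι₁ x)) = ι₂ x
  rw [MulEquiv.symm_apply_eq]
  show Θ₁ (ι₁ x) = Θ₂ (ι₂ x)
  rw [hι₁, hι₂]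

end equiv

section final

variable [Finite S] {p : ℕ} [Fact p.Prime] {F : FusionSystem S}

/-- the preimage of `O_p(G)` of a model is normal and centric (after the proof of S5103). -/
theorem pre_pCore_normal_centric {G : Type v} [Group G] {ι : S →* G} (hG : F.IsModel p G ι) :
    F.IsNormal (Helper85.preSub ι (pCore p G)) ∧ F.IsCentric (Helper85.preSub ι (pCore p G)) := by
  classical
  obtain ⟨hfin, hreal, ⟨T, hT⟩, hcent⟩ := hG
  obtain ⟨hinj, hr⟩ := hreal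
  have hQn : (pCore p G).Normal := Subgroup.sSup_normal _ (fun H hH => hH.1)
  have hQT : pCore p G ≤ (T : Subgroup G) := pCore_le_sylow p T
  have hQr : pCore p G ≤ ι.range := hT ▸ hQT
  have hQS : Helper85.preSub ι (pCore p G) ≤ S := Helper85.preSub_le _ _
  refine ⟨⟨hQS, ?_⟩, hQS, ?_⟩
  · intro P φ hφ
    have hP := (F.le_of_mem hφ).1
    have hφS := (F.le_of_mem hφ).2
    obtain ⟨g, hg⟩ := (hr P hP φ hφS).mp hφ
    have hPQ : P ⊔ Helper85.preSub ι (pCore p G) ≤ S := sup_le hP hQS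
    have hle : P ⊔ Helper85.preSub ι (pCore p G) ≤
        Helper85.preSub ι (ι.range.comap (MulAut.conj g).toMonoidHom) := by
      refine sup_le ?_ ?_
      · intro x hx
        refine Helper85.mem_preSub.mpr ⟨hP hx, ?_⟩
        show g * ι ⟨x, hP hx⟩ * g⁻¹ ∈ ι.range
        rw [← hg ⟨x, hx⟩]
        exact ⟨_, rfl⟩
      · intro x hx
        obtain ⟨hxS, hxQ⟩ := Helper85.mem_preSub.mp hx
        refine Helper85.mem_preSub.mpr ⟨hxS, ?_⟩
        show g * ι ⟨x, hxS⟩ * g⁻¹ ∈ ι.range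
        exact hQr (hQn.conj_mem _ hxQ g)
    have hval : ∀ x : ↥(P ⊔ Helper85.preSub ι (pCore p G)),
        g * ι ⟨x, hPQ x.2⟩ * g⁻¹ ∈ ι.range := fun x =>
      (Helper85.mem_preSub.mp (hle x.2)).2
    obtain ⟨ψ, hψS, hψ⟩ := Helper85.exists_lift_conj hinj hPQ g hval
    refine ⟨ψ, (hr _ hPQ ψ hψS).mpr ⟨g, hψ⟩, ?_, ?_⟩
    · intro x
      have h1 := hψ (Subgroup.inclusion le_sup_left x)
      have h2 := hg x
      have h3 : ι ⟨ψ (Subgroup.inclusion le_sup_left x), hψS _⟩ = ι ⟨φ x, hφS x⟩ :=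
        h1.trans h2.symm
      exact Subtype.mk.inj (hinj h3)
    · rw [Helper85.map_subgroupOf_eq_iff]
      constructor
      · intro x hx
        refine Helper85.mem_preSub.mpr ⟨hψS x, ?_⟩
        rw [hψ]
        exact hQn.conj_mem _ (Helper85.mem_preSub.mp hx).2 g
      · intro y hy
        obtain ⟨hyS, hyQ⟩ := Helper85.mem_preSub.mp hy
        have h1 : g⁻¹ * ι ⟨y, hyS⟩ * g ∈ pCore p G := by
          have := hQn.conj_mem _ hyQ g⁻¹
          simpa using this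
        obtain ⟨x, hx⟩ := hQr h1
        have hxQ : (x : Ω) ∈ Helper85.preSub ι (pCore p G) :=
          Helper85.mem_preSub.mpr ⟨x.2, by rw [← hx] at h1; exact h1⟩
        refine ⟨⟨x, Subgroup.mem_sup_right hxQ⟩, hxQ, ?_⟩
        have h2 := hψ ⟨x, Subgroup.mem_sup_right hxQ⟩
        have h3 : ι ⟨ψ ⟨x, Subgroup.mem_sup_right hxQ⟩, hψS _⟩ = ι ⟨y, hyS⟩ := by
          rw [h2]
          show g * ι x * g⁻¹ = _
          rw [hx]
          group
        exact Subtype.mk.inj (hinj h3)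
  · intro Q' hQQ'
    obtain ⟨φ, hφ, rfl⟩ := hQQ'
    have hφS := (F.le_of_mem hφ).2
    obtain ⟨g, hg⟩ := (hr _ hQS φ hφS).mp hφ
    have hrange : φ.range = Helper85.preSub ι (pCore p G) := by
      have hle : φ.range ≤ Helper85.preSub ι (pCore p G) := by
        rintro _ ⟨x, rfl⟩
        refine Helper85.mem_preSub.mpr ⟨hφS x, ?_⟩
        rw [hg]
        exact hQn.conj_mem _ (Helper85.map_mem_of_mem_preSub x) g
      have : Finite ↥(Helper85.preSub ι (pCore p G)) := finite_of_le hQS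
      apply Subgroup.eq_of_le_of_card_ge hle
      exact (Nat.card_congr (MonoidHom.ofInjective (F.injective_of_mem hφ)).toEquiv).le
    rw [hrange]
    intro s hs
    obtain ⟨hsS, hsC⟩ := Subgroup.mem_inf.mp hs
    refine Helper85.mem_preSub.mpr ⟨hsS, ?_⟩
    apply hcent
    rw [Subgroup.mem_centralizer_iff]
    intro y hy
    obtain ⟨x, rfl⟩ := hQr hy
    have hxQ : (x : Ω) ∈ Helper85.preSub ι (pCore p G) :=
      Helper85.mem_preSub.mpr ⟨x.2, hy⟩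
    have := Subgroup.mem_centralizer_iff.mp hsC x hxQ
    rw [← map_mul, ← map_mul]
    congr 1
    exact Subtype.ext this

omit [Finite S] in
theorem modelAt_of_isModel {G : Type v} [Group G] {ι : S →* G} (hG : F.IsModel p G ι)
    {Q : Subgroup Ω} (h : NC S Q) (hQ : Q = Helper85.preSub ι (pCore p G)) : ModelAt F h ι := by
  obtain ⟨hfin, hreal, ⟨T, hT⟩, hcent⟩ := hG
  have hQn : (pCore p G).Normal := Subgroup.sSup_normal _ (fun H hH => hH.1)
  have hQr : pCore p G ≤ ι.range := hT ▸ pCore_le_sylow p T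
  have hmem : ∀ q : Q, ι ⟨q, h.le q.2⟩ ∈ pCore p G := fun q =>
    (Helper85.mem_preSub.1 (hQ.le q.2)).2
  refine ⟨hreal, ?_, ?_⟩
  · intro g q
    have h1 : g * ι ⟨q, h.le q.2⟩ * g⁻¹ ∈ pCore p G := hQn.conj_mem _ (hmem q) g
    obtain ⟨x, hx⟩ := hQr h1
    have hxQ : (x : Ω) ∈ Q := hQ.ge (Helper85.mem_preSub.2 ⟨x.2, by rw [← hx] at h1; exact h1⟩)
    exact ⟨⟨x, hxQ⟩, hx⟩
  · intro g hg
    have hgc : g ∈ Subgroup.centralizer ((pCore p G : Subgroup G) : Set G) := by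
      rw [Subgroup.mem_centralizer_iff]
      intro y hy
      obtain ⟨x, rfl⟩ := hQr hy
      have hxQ : (x : Ω) ∈ Q := hQ.ge (Helper85.mem_preSub.2 ⟨x.2, hy⟩)
      exact (hg ⟨x, hxQ⟩).symm
    have h1 := hcent hgc
    obtain ⟨x, hx⟩ := hQr h1
    have hxQ : (x : Ω) ∈ Q := hQ.ge (Helper85.mem_preSub.2 ⟨x.2, by rw [← hx] at h1; exact h1⟩)
    exact ⟨⟨x, hxQ⟩, hx.symm⟩

theorem pre_pCore_le (hS : IsPGroup p S) {G₁ : Type v} {G₂ : Type w} [Group G₁] [Group G₂]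
    {ι₁ : S →* G₁} {ι₂ : S →* G₂} (h₁ : F.IsModel p G₁ ι₁) (h₂ : F.IsModel p G₂ ι₂) :
    Helper85.preSub ι₁ (pCore p G₁) ≤ Helper85.preSub ι₂ (pCore p G₂) := by
  obtain ⟨hn₁, hc₁⟩ := pre_pCore_normal_centric h₁
  obtain ⟨hn₂, hc₂⟩ := pre_pCore_normal_centric h₂
  have nc₁ := nc_of_normal_centric F hn₁ hc₁
  have nc₂ := nc_of_normal_centric F hn₂ hc₂
  have M₂ := modelAt_of_isModel h₂ nc₂ rfl
  have hinj₂ := M₂.real.1
  -- the image of `U₁` in `G₂` is normal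
  have key : ∀ (g : G₂) (x : S), (x : Ω) ∈ Helper85.preSub ι₁ (pCore p G₁) →
      ∃ x' : S, (x' : Ω) ∈ Helper85.preSub ι₁ (pCore p G₁) ∧ ι₂ x' = g * ι₂ x * g⁻¹ := by
    intro g x hx
    let γ := M₂.piG g
    have hθ : (Helper85.preSub ι₂ (pCore p G₂)).subtype.comp (γ : MulAut _).toMonoidHom ∈
        F.Hom (Helper85.preSub ι₂ (pCore p G₂)) := (mem_autGroup_iff F nc₂.le _).1 γ.2
    obtain ⟨ψ, hψ, hψ1, hψ2⟩ := hn₁.2 _ _ hθ
    have hle : Helper85.preSub ι₂ (pCore p G₂) ⊔ Helper85.preSub ι₁ (pCore p G₁) ≤ S :=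
      hom_le F hψ
    obtain ⟨g', hg'⟩ := (M₂.real.2 _ hle ψ (hom_mem_S F hψ)).1 hψ
    -- `g⁻¹ g'` centralizes the image of `U₂`
    have hc : ∀ q : Helper85.preSub ι₂ (pCore p G₂),
        (g⁻¹ * g') * ι₂ ⟨q, nc₂.le q.2⟩ = ι₂ ⟨q, nc₂.le q.2⟩ * (g⁻¹ * g') := by
      intro q
      have e1 := hg' (Subgroup.inclusion le_sup_left q)
      have e2 := M₂.piG_spec g q
      have e3' : ψ (Subgroup.inclusion le_sup_left q) =
          (((γ : MulAut (Helper85.preSub ι₂ (pCore p G₂))) q :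
            Helper85.preSub ι₂ (pCore p G₂)) : Ω) := hψ1 q
      have e3 : (⟨ψ (Subgroup.inclusion le_sup_left q), hom_mem_S F hψ _⟩ : S) =
          ⟨(((γ : MulAut (Helper85.preSub ι₂ (pCore p G₂))) q :
            Helper85.preSub ι₂ (pCore p G₂)) : Ω), nc₂.le (Subtype.property _)⟩ := Subtype.ext e3'
      rw [e3] at e1
      have e4 : g * ι₂ ⟨q, nc₂.le q.2⟩ * g⁻¹ = g' * ι₂ ⟨q, nc₂.le q.2⟩ * g'⁻¹ := e2.symm.trans e1
      calc (g⁻¹ * g') * ι₂ ⟨q, nc₂.le q.2⟩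
          = g⁻¹ * (g' * ι₂ ⟨q, nc₂.le q.2⟩ * g'⁻¹) * g' := by group
        _ = ι₂ ⟨q, nc₂.le q.2⟩ * (g⁻¹ * g') := by
          rw [← e4]
          group
    obtain ⟨u, hu⟩ := M₂.cent _ hc
    -- `u⁻¹ x u` lies in `U₁`
    have hx' : ((u : Ω)⁻¹ * x * (u : Ω)) ∈ Helper85.preSub ι₁ (pCore p G₁) := by
      have h1 := nc₁.norm _ (S.inv_mem (nc₂.le u.2)) _ hx
      rwa [inv_inv] at h1
    have hx'' : ((u : Ω)⁻¹ * x * (u : Ω)) ∈
        Helper85.preSub ι₂ (pCore p G₂) ⊔ Helper85.preSub ι₁ (pCore p G₁) :=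
      Subgroup.mem_sup_right hx'
    have hψx : ψ ⟨_, hx''⟩ ∈ Helper85.preSub ι₁ (pCore p G₁) :=
      hψ2.le ⟨⟨_, hx''⟩, hx', rfl⟩
    refine ⟨⟨ψ ⟨_, hx''⟩, hom_mem_S F hψ _⟩, hψx, ?_⟩
    rw [hg' ⟨_, hx''⟩]
    have e5 : g = g' * (ι₂ ⟨u, nc₂.le u.2⟩)⁻¹ := by
      rw [← hu]
      group
    have e6 : ι₂ ⟨(u : Ω)⁻¹ * x * (u : Ω), hle hx''⟩ =
        (ι₂ ⟨u, nc₂.le u.2⟩)⁻¹ * ι₂ x * ι₂ ⟨u, nc₂.le u.2⟩ := by
      rw [← map_inv, ← map_mul, ← map_mul]
      rfl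
    rw [e6, e5]
    group
  let N : Subgroup G₂ := ((Helper85.preSub ι₁ (pCore p G₁)).subgroupOf S).map ι₂
  have hNn : N.Normal := by
    constructor
    rintro _ ⟨x, hx, rfl⟩ g
    obtain ⟨x', hx', e⟩ := key g x hx
    exact ⟨x', hx', e⟩
  have hNp : IsPGroup p N :=
    (hS.to_subgroup ((Helper85.preSub ι₁ (pCore p G₁)).subgroupOf S)).map ι₂
  have hNle : N ≤ pCore p G₂ := le_pCore hNn hNp
  intro x hx
  have hxS : x ∈ S := nc₁.le hx
  exact Helper85.mem_preSub.2 ⟨hxS, hNle ⟨⟨x, hxS⟩, hx, rfl⟩⟩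

/-- two models of a constrained fusion system are isomorphic over `S`. -/
theorem model_unique (p : ℕ) [Fact p.Prime] (hS : IsPGroup p S) (F : FusionSystem S)
    (hF : F.IsConstrained p) {G₁ : Type v} {G₂ : Type w} [Group G₁] [Group G₂]
    (ι₁ : S →* G₁) (ι₂ : S →* G₂) (h₁ : F.IsModel p G₁ ι₁) (h₂ : F.IsModel p G₂ ι₂) :
    ∃ φ : G₁ ≃* G₂, ∀ x : S, φ (ι₁ x) = ι₂ x := by
  have hU : Helper85.preSub ι₁ (pCore p G₁) = Helper85.preSub ι₂ (pCore p G₂) :=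
    le_antisymm (pre_pCore_le hS h₁ h₂) (pre_pCore_le hS h₂ h₁)
  obtain ⟨hn, hc⟩ := pre_pCore_normal_centric h₁
  have nc := nc_of_normal_centric F hn hc
  have M₁ := modelAt_of_isModel h₁ nc rfl
  have M₂ := modelAt_of_isModel h₂ nc hU
  have := h₁.1
  have := h₂.1
  exact ModelAt.equiv hS hF.1 M₁ M₂

end final

end Model
end Cfsg.Agent.Lib.Helper84
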