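import Mathlib
import Cfsg.Prelude.Def_FusionSystem
import Cfsg.Agent.Lib.Helper84.PIdxN3

set_option autoImplicit false

namespace Cfsg.Agent.Lib.Helper84.PIdxN

open Cfsg Cfsg.FusionSystem
open Cfsg.Agent.Lib.Helper88 (Mor extFun extFun_mem extFun_apply img mor_of_hom hom_of_mor mor_conj mor_id)

variable {Ω : Type*} [Group Ω] {S T : Subgroup Ω}

/-- an automorphism of `T` of order prime to `p` in the system extends suitably. -/
theorem ext_pprime [Finite S] (p : ℕ) [Fact p.Prime] (hS : IsPGroup p S) (F : FusionSystem S)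
    (hF : F.IsSaturated p) (hTS : T ≤ S) (hn : ∀ s ∈ S, ∀ t ∈ T, s * t * s⁻¹ ∈ T)
    (hT : F.hyperfocalSubgroup p ≤ T) {α : MulAut T} (hαF : α ∈ F.autGroup T)
    (hcop : (orderOf α).Coprime p) : Ext F T α := by
  have hp : p.Prime := Fact.out
  have hfn := fullyNormalized_of_normal F hTS hn
  have hfc := fullyCentralized_of_fullyNormalized p hS F hF hfn
  have hrec := receptive_of_fullyCentralized p hS F hF hfc
  have hK : T ⊔ centralizerIn S T ≤ S := sup_le hTS (centralizerIn_le S T)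
  have hTK : T ≤ T ⊔ centralizerIn S T := le_sup_left
  have hCK : centralizerIn S T ≤ T ⊔ centralizerIn S T := le_sup_right
  have hfinK : Finite ↥(T ⊔ centralizerIn S T) := finite_of_le hK
  have hφ : T.subtype.comp α.toMonoidHom ∈ F.Hom T := Helper88.subtype_comp_mem F hTS hαF
  have hr : (T.subtype.comp α.toMonoidHom).range = T := by
    ext y
    constructor
    · rintro ⟨x, rfl⟩
      exact (α x).2
    · intro hy
      refine ⟨α⁻¹ ⟨y, hy⟩, ?_⟩
      show ((α (α⁻¹ ⟨y, hy⟩) : T) : Ω) = y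
      simp
  obtain ⟨ψ, hψ, hψφ⟩ := hrec.2 T _ hφ hr
  have hle : T ⊔ centralizerIn S T ≤ extender S T (T.subtype.comp α.toMonoidHom) :=
    sup_le (le_extender hTS _ (fun x => hTS (α x).2)) (centralizerIn_le_extender S T _)
  have hm : Mor F (T ⊔ centralizerIn S T) (extFun ψ) := (mor_of_hom F hψ).res hle
  have hmT : ∀ (x : Ω) (hx : x ∈ T), extFun ψ x = ((α ⟨x, hx⟩ : T) : Ω) := by
    intro x hx
    rw [extFun_mem ψ (hle (hTK hx)), hψφ x hx]
    rfl
  have hmC : ∀ x ∈ centralizerIn S T, extFun ψ x ∈ centralizerIn S T := by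
    intro x hx
    have hxK : x ∈ T ⊔ centralizerIn S T := hCK hx
    refine ⟨hm.mem_S hxK, ?_⟩
    show _ ∈ Subgroup.centralizer (T : Set Ω)
    rw [Subgroup.mem_centralizer_iff]
    intro t ht
    have ht' : ((α⁻¹ ⟨t, ht⟩ : T) : Ω) ∈ T := (α⁻¹ ⟨t, ht⟩).2
    have e1 : extFun ψ ((α⁻¹ ⟨t, ht⟩ : T) : Ω) = t := by
      rw [hmT _ ht']
      simp
    have e2 : ((α⁻¹ ⟨t, ht⟩ : T) : Ω) * x = x * ((α⁻¹ ⟨t, ht⟩ : T) : Ω) :=
      (Subgroup.mem_centralizer_iff.mp hx.2) _ ht'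
    rw [← e1, ← hm.map_mul (hTK ht') hxK, ← hm.map_mul hxK (hTK ht'), e2]
  have hmaps : ∀ x ∈ T ⊔ centralizerIn S T, extFun ψ x ∈ T ⊔ centralizerIn S T :=
    mor_sup_mem hm (fun x hx => hTK (by rw [hmT x hx]; exact (α _).2))
      (fun x hx => hCK (hmC x hx))
  obtain ⟨β₁, hβ₁, hβ₁x⟩ := hm.exists_aut hmaps
  have hpow : ∀ (k : ℕ) (x : T), (((β₁ ^ k) (Subgroup.inclusion hTK x) :
      ↥(T ⊔ centralizerIn S T)) : Ω) = (((α ^ k) x : T) : Ω) := by
    intro k
    induction k with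
    | zero => intro x; rfl
    | succ k ih =>
      intro x
      rw [pow_succ', pow_succ', MulAut.mul_apply, MulAut.mul_apply]
      have e : (β₁ ^ k) (Subgroup.inclusion hTK x) = Subgroup.inclusion hTK ((α ^ k) x) :=
        Subtype.ext (ih x)
      rw [e, hβ₁x]
      exact hmT _ ((α ^ k) x).2
  have hfinA : Finite (F.autGroup (T ⊔ centralizerIn S T)) := finite_autGroup F hK
  obtain ⟨b, hb⟩ : ∃ b : F.autGroup (T ⊔ centralizerIn S T), (b : MulAut _) = β₁ :=
    ⟨⟨β₁, hβ₁⟩, rfl⟩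
  have hpos : orderOf b ≠ 0 := (orderOf_pos b).ne'
  obtain ⟨a, m, hm', hgm⟩ := Nat.exists_eq_pow_mul_and_not_dvd hpos p hp.ne_one
  have hcop' : (p ^ a).Coprime (orderOf α) := Nat.Coprime.pow_left a hcop.symm
  obtain ⟨t, ht⟩ := exists_pow_eq_self_of_coprime hcop'
  have hbord : (orderOf ((b ^ (p ^ a)) ^ t)).Coprime p := by
    have h1 : orderOf (b ^ (p ^ a)) = m := by
      rw [orderOf_pow, hgm]
      have hg : Nat.gcd (p ^ a * m) (p ^ a) = p ^ a := Nat.gcd_eq_right (dvd_mul_right _ _)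
      rw [hg, Nat.mul_div_cancel_left _ (pow_pos hp.pos a)]
    have h2 : orderOf ((b ^ (p ^ a)) ^ t) ∣ m := h1 ▸ orderOf_pow_dvd t
    exact Nat.Coprime.coprime_dvd_left h2 ((Nat.Prime.coprime_iff_not_dvd hp).2 hm').symm
  have hbR : (((b ^ (p ^ a)) ^ t : F.autGroup (T ⊔ centralizerIn S T)) : MulAut _) ∈
      (pResidual p ↥(F.autGroup (T ⊔ centralizerIn S T))).map
        (F.autGroup (T ⊔ centralizerIn S T)).subtype :=
    ⟨_, Subgroup.subset_closure hbord, rfl⟩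
  have hbeq : (((b ^ (p ^ a)) ^ t : F.autGroup (T ⊔ centralizerIn S T)) : MulAut _)
      = β₁ ^ (p ^ a * t) := by
    rw [Subgroup.coe_pow, Subgroup.coe_pow, hb, pow_mul]
  have hαpow : α ^ (p ^ a * t) = α := by
    rw [pow_mul]
    exact ht
  have hext : ∀ x : T, (((((b ^ (p ^ a)) ^ t : F.autGroup (T ⊔ centralizerIn S T)) : MulAut _)
      (Subgroup.inclusion hTK x) : ↥(T ⊔ centralizerIn S T)) : Ω) = ((α x : T) : Ω) := by
    intro x
    rw [hbeq, hpow, hαpow]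
  refine ⟨_, ((b ^ (p ^ a)) ^ t).2, hext, ?_⟩
  intro c hc
  refine ⟨hT (Helper87.hyperfocal_gen F p hK hbR c), ?_⟩
  exact Subgroup.mul_mem _ (Subgroup.inv_mem _ hc.2) (aut_cent_mem hTK _ α hext c hc.2)

theorem ext_of_mem [Finite S] (p : ℕ) [Fact p.Prime] (hS : IsPGroup p S) (F : FusionSystem S)
    (hF : F.IsSaturated p) (hTS : T ≤ S) (hn : ∀ s ∈ S, ∀ t ∈ T, s * t * s⁻¹ ∈ T)
    (hT : F.hyperfocalSubgroup p ≤ T) (E : FusionSystem T) (hEs : E.IsSaturated p)
    (hEi : E.HasPPowerIndexIn F p) {α : MulAut T} (hα : α ∈ E.autGroup T) : Ext F T α := by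
  have hfinT : Finite T := finite_of_le hTS
  have hpT : IsPGroup p T := hS.to_le hTS
  have hfnE : E.IsFullyNormalized T := by
    refine ⟨le_rfl, fun Q _ => ?_⟩
    rw [KSys.normalizerIn_self]
    exact Subgroup.card_le_of_le (normalizerIn_le T Q)
  have hfaE := fullyAutomized_of_fullyNormalized p hpT E hEs hfnE
  obtain ⟨c, hc, β, hβ, rfl⟩ := Helper87.exists_aut_mul_pResidual E hfaE hα
  obtain ⟨g, hg, hcg⟩ := (Helper88.mem_autInducedBy_iff T T c).mp hc
  refine Ext.mul (ext_inner F hTS hg hcg) ?_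
  have hle : (pResidual p ↥(E.autGroup T)).map (E.autGroup T).subtype ≤ extSubgroup F T := by
    rw [Helper87.map_pResidual_eq_closure, Subgroup.closure_le]
    rintro a ⟨haE, hcop⟩
    exact ext_pprime p hS F hF hTS hn hT (Helper86.autGroup_mono E F hEi.1 T haE) hcop
  exact hle hβ

/-- **A saturated subsystem of `p`-power index is normal.** -/
theorem main [Finite S] (p : ℕ) [Fact p.Prime] (hS : IsPGroup p S) (F : FusionSystem S)
    (hF : F.IsSaturated p) (T : Subgroup Ω) (hTS : T ≤ S) (hTn : (T.subgroupOf S).Normal)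
    (hT : F.hyperfocalSubgroup p ≤ T) (E : FusionSystem T) (hEs : E.IsSaturated p)
    (hEi : E.HasPPowerIndexIn F p) : E.IsNormalIn F p := by
  have hn : ∀ s ∈ S, ∀ t ∈ T, s * t * s⁻¹ ∈ T := by
    intro s hs t ht
    have h1 := hTn.conj_mem ⟨t, hTS ht⟩ (Subgroup.mem_subgroupOf.mpr ht) ⟨s, hs⟩
    exact Subgroup.mem_subgroupOf.mp h1
  have hinv := sInv_of_mor hS F E hTS hn hEs hEi
  have hle := le_fSys p hS F hF hn hT E hEi hinv
  refine ⟨⟨hEs, hF, hEi.1, stronglyClosed_of_le hTS hle,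
    invariant_of p hS F hF hTS hn E hEi hinv, frattini_of_le hTS hle⟩, ?_⟩
  intro α hα
  exact ext_of_mem p hS F hF hTS hn hT E hEs hEi hα

end Cfsg.Agent.Lib.Helper84.PIdxN
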