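import Mathlib
import Cfsg.Prelude.Def_FusionSystem
import Cfsg.Prelude.Def_FusionComponents
import Cfsg.Agent.Lib.Helper84.FusionSat2
import Cfsg.Agent.Lib.Helper84.FusionIso
import Cfsg.Agent.Lib.Helper84.FusionRS

set_option autoImplicit false

namespace Cfsg.Agent.Lib.Helper84

open Cfsg Cfsg.FusionSystem

/-! ### Group-theoretic preliminaries -/

section prelim

variable {p : ℕ} [Fact p.Prime]

/-- some conjugate of `B` meets the Sylow subgroup `T` in a Sylow subgroup of that conjugate. -/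
theorem exists_conj_inf_sylow {X : Type*} [Group X] [Finite X] (T : Sylow p X) (B : Subgroup X) :
    ∃ g : X, ¬ p ∣ ((T : Subgroup X) ⊓ B.map (MulAut.conj g).toMonoidHom).relIndex
      (B.map (MulAut.conj g).toMonoidHom) := by
  obtain ⟨R⟩ : Nonempty (Sylow p B) := inferInstance
  have hR' : IsPGroup p ((R : Subgroup B).map B.subtype) := R.isPGroup'.map _
  obtain ⟨g, hg⟩ := exists_conj_le_sylow T hR'
  refine ⟨g, fun hdvd => ?_⟩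
  have h1 : ((R : Subgroup B).map B.subtype).map (MulAut.conj g).toMonoidHom ≤
      (T : Subgroup X) ⊓ B.map (MulAut.conj g).toMonoidHom := by
    rintro _ ⟨b, hb, rfl⟩
    refine ⟨hg b hb, ?_⟩
    obtain ⟨b', -, rfl⟩ := hb
    exact ⟨b', b'.2, rfl⟩
  have h2 := Subgroup.relIndex_dvd_of_le_left (B.map (MulAut.conj g).toMonoidHom) h1
  rw [Subgroup.relIndex_map_map_of_injective _ _ (MulAut.conj g).injective] at h2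
  have h3 : ((R : Subgroup B).map B.subtype).relIndex B = (R : Subgroup B).index := by
    unfold Subgroup.relIndex Subgroup.subgroupOf
    rw [Subgroup.comap_map_eq_self_of_injective (Subgroup.subtype_injective _)]
  rw [h3] at h2
  exact R.not_dvd_index (hdvd.trans h2)

/-- the product of Sylow subgroups is a Sylow subgroup of the product. -/
theorem exists_sylow_prod {A₁ A₂ : Type*} [Group A₁] [Group A₂] [Finite A₁] [Finite A₂]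
    (R₁ : Sylow p A₁) (R₂ : Sylow p A₂) :
    ∃ T : Sylow p (A₁ × A₂),
      (T : Subgroup (A₁ × A₂)) = (R₁ : Subgroup A₁).prod (R₂ : Subgroup A₂) := by
  have hp : IsPGroup p ↥((R₁ : Subgroup A₁).prod (R₂ : Subgroup A₂)) := by
    rintro ⟨⟨a, b⟩, ha, hb⟩
    obtain ⟨k, hk⟩ := R₁.isPGroup' ⟨a, ha⟩
    obtain ⟨l, hl⟩ := R₂.isPGroup' ⟨b, hb⟩
    refine ⟨k + l, Subtype.ext (Prod.ext ?_ ?_)⟩
    · have h1 : a ^ p ^ k = 1 := congrArg Subtype.val hk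
      show a ^ p ^ (k + l) = 1
      rw [pow_add, pow_mul, h1, one_pow]
    · have h1 : b ^ p ^ l = 1 := congrArg Subtype.val hl
      show b ^ p ^ (k + l) = 1
      rw [pow_add, mul_comm, pow_mul, h1, one_pow]
  have hidx : ¬ p ∣ ((R₁ : Subgroup A₁).prod (R₂ : Subgroup A₂)).index := by
    rw [Subgroup.index_prod]
    intro h
    rcases (Nat.Prime.dvd_mul (Fact.out)).1 h with h | h
    · exact R₁.not_dvd_index h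
    · exact R₂.not_dvd_index h
  exact ⟨hp.toSylow hidx, IsPGroup.toSylow_coe hp hidx⟩

/-- transfer of a `p'`-index through a homomorphism with prescribed range. -/
theorem not_dvd_index_of_range {A M : Type*} [Group A] [Group M] (f : A →* M)
    (K L : Subgroup M) (hrange : f.range = L) (U : Subgroup A) (hU : ¬ p ∣ U.index)
    (hUK : ∀ a ∈ U, f a ∈ K) : ¬ p ∣ (K.subgroupOf L).index := by
  subst hrange
  intro h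
  apply hU
  have h1 : U.map f.rangeRestrict ≤ K.subgroupOf f.range := by
    rintro _ ⟨a, ha, rfl⟩
    exact Subgroup.mem_subgroupOf.2 (hUK a ha)
  exact (h.trans (Subgroup.index_dvd_of_le h1)).trans
    (Subgroup.index_map_dvd _ f.rangeRestrict_surjective)

end prelim

/-! ### Automorphisms from maps of the system -/

section autOfHom

variable {Ω : Type*} [Group Ω] {S : Subgroup Ω}

/-- a map of the system from `R` into itself is an automorphism of the system. -/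
theorem exists_aut_of_hom [Finite S] (F : FusionSystem S) {R Q : Subgroup Ω} (hRQ : R = Q)
    {φ : R →* Ω} (hφ : φ ∈ F.Hom R) (hφR : ∀ x, φ x ∈ R) :
    ∃ a ∈ F.autGroup Q, ∀ (x : Ω) (hx : x ∈ R) (hx' : x ∈ Q),
      ((a ⟨x, hx'⟩ : Q) : Ω) = φ ⟨x, hx⟩ := by
  subst hRQ
  have hRS : R ≤ S := hom_le F hφ
  have hfinR : Finite R := finite_of_le hRS
  have hfinr : Finite φ.range := finite_of_le (hom_range_le F hφ)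
  have hle : φ.range ≤ R := by
    rintro _ ⟨x, rfl⟩
    exact hφR x
  have hcard : Nat.card R ≤ Nat.card φ.range :=
    Nat.card_le_card_of_injective φ.rangeRestrict (fun a b hab =>
      F.injective_of_mem hφ (congrArg Subtype.val hab))
  have hrange : φ.range = R := Subgroup.eq_of_le_of_card_ge hle hcard
  refine ⟨isoOfHom F hφ hrange, ?_, fun x hx hx' => rfl⟩
  rw [← isFIso_aut_iff F hRS]
  exact isFIso_isoOfHom F hφ hrange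

end autOfHom

/-! ### Product systems -/

section prodsys

variable {Ω₁ : Type*} {Ω₂ : Type*} [Group Ω₁] [Group Ω₂]

/-- restriction to `P` of the product of two homomorphisms defined on the projections of `P`. -/
def prodRes (P : Subgroup (Ω₁ × Ω₂)) (φ₁ : ↥(P.map (MonoidHom.fst Ω₁ Ω₂)) →* Ω₁)
    (φ₂ : ↥(P.map (MonoidHom.snd Ω₁ Ω₂)) →* Ω₂) : P →* Ω₁ × Ω₂ :=
  (φ₁.comp ((MonoidHom.fst Ω₁ Ω₂).subgroupMap P)).prod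
    (φ₂.comp ((MonoidHom.snd Ω₁ Ω₂).subgroupMap P))

theorem prodRes_apply (P : Subgroup (Ω₁ × Ω₂)) (φ₁ : ↥(P.map (MonoidHom.fst Ω₁ Ω₂)) →* Ω₁)
    (φ₂ : ↥(P.map (MonoidHom.snd Ω₁ Ω₂)) →* Ω₂) (x : P) :
    prodRes P φ₁ φ₂ x = (φ₁ ⟨x.1.1, ⟨x.1, x.2, rfl⟩⟩, φ₂ ⟨x.1.2, ⟨x.1, x.2, rfl⟩⟩) := rfl

theorem prodRes_range_map_fst (P : Subgroup (Ω₁ × Ω₂))
    (φ₁ : ↥(P.map (MonoidHom.fst Ω₁ Ω₂)) →* Ω₁) (φ₂ : ↥(P.map (MonoidHom.snd Ω₁ Ω₂)) →* Ω₂) :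
    (prodRes P φ₁ φ₂).range.map (MonoidHom.fst Ω₁ Ω₂) = φ₁.range := by
  ext y
  constructor
  · rintro ⟨_, ⟨x, rfl⟩, rfl⟩
    exact ⟨_, rfl⟩
  · rintro ⟨⟨_, x, hx, rfl⟩, rfl⟩
    exact ⟨prodRes P φ₁ φ₂ ⟨x, hx⟩, ⟨⟨x, hx⟩, rfl⟩, rfl⟩

theorem prodRes_range_map_snd (P : Subgroup (Ω₁ × Ω₂))
    (φ₁ : ↥(P.map (MonoidHom.fst Ω₁ Ω₂)) →* Ω₁) (φ₂ : ↥(P.map (MonoidHom.snd Ω₁ Ω₂)) →* Ω₂) :
    (prodRes P φ₁ φ₂).range.map (MonoidHom.snd Ω₁ Ω₂) = φ₂.range := by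
  ext y
  constructor
  · rintro ⟨_, ⟨x, rfl⟩, rfl⟩
    exact ⟨_, rfl⟩
  · rintro ⟨⟨_, x, hx, rfl⟩, rfl⟩
    exact ⟨prodRes P φ₁ φ₂ ⟨x, hx⟩, ⟨⟨x, hx⟩, rfl⟩, rfl⟩

variable {S₁ : Subgroup Ω₁} {S₂ : Subgroup Ω₂}

theorem map_fst_le_of_le_prod {P : Subgroup (Ω₁ × Ω₂)} (hP : P ≤ S₁.prod S₂) :
    P.map (MonoidHom.fst Ω₁ Ω₂) ≤ S₁ := by
  rintro _ ⟨x, hx, rfl⟩
  exact (Subgroup.mem_prod.1 (hP hx)).1

theorem map_snd_le_of_le_prod {P : Subgroup (Ω₁ × Ω₂)} (hP : P ≤ S₁.prod S₂) :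
    P.map (MonoidHom.snd Ω₁ Ω₂) ≤ S₂ := by
  rintro _ ⟨x, hx, rfl⟩
  exact (Subgroup.mem_prod.1 (hP hx)).2

variable {F₁ : FusionSystem S₁} {F₂ : FusionSystem S₂} {E : FusionSystem (S₁.prod S₂)}

theorem isProduct_mem_iff (hE : IsProductSystem F₁ F₂ E) (P : Subgroup (Ω₁ × Ω₂))
    (φ : P →* Ω₁ × Ω₂) :
    φ ∈ E.Hom P ↔ P ≤ S₁.prod S₂ ∧ ∃ φ₁ ∈ F₁.Hom (P.map (MonoidHom.fst Ω₁ Ω₂)),
      ∃ φ₂ ∈ F₂.Hom (P.map (MonoidHom.snd Ω₁ Ω₂)), φ = prodRes P φ₁ φ₂ := by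
  rw [hE P φ]
  constructor
  · rintro ⟨hP, φ₁, hφ₁, φ₂, hφ₂, h⟩
    refine ⟨hP, φ₁, hφ₁, φ₂, hφ₂, ?_⟩
    apply MonoidHom.ext
    intro x
    exact h x _ _
  · rintro ⟨hP, φ₁, hφ₁, φ₂, hφ₂, rfl⟩
    exact ⟨hP, φ₁, hφ₁, φ₂, hφ₂, fun x h₁ h₂ => rfl⟩

/-- a subgroup whose two projections are receptive is receptive in the product system. -/
theorem product_receptive [Finite S₁] [Finite S₂] (hE : IsProductSystem F₁ F₂ E)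
    {P : Subgroup (Ω₁ × Ω₂)} (hP : P ≤ S₁.prod S₂)
    (h₁ : F₁.IsReceptive (P.map (MonoidHom.fst Ω₁ Ω₂)))
    (h₂ : F₂.IsReceptive (P.map (MonoidHom.snd Ω₁ Ω₂))) : E.IsReceptive P := by
  refine ⟨hP, fun P₀ φ hφ hrange => ?_⟩
  obtain ⟨hP₀, φ₁, hφ₁, φ₂, hφ₂, rfl⟩ := (isProduct_mem_iff hE P₀ φ).1 hφ
  have hr₁ : φ₁.range = P.map (MonoidHom.fst Ω₁ Ω₂) := by
    rw [← hrange, prodRes_range_map_fst]
  have hr₂ : φ₂.range = P.map (MonoidHom.snd Ω₁ Ω₂) := by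
    rw [← hrange, prodRes_range_map_snd]
  obtain ⟨ψ₁, hψ₁, hψφ₁⟩ := h₁.2 _ φ₁ hφ₁ hr₁
  obtain ⟨ψ₂, hψ₂, hψφ₂⟩ := h₂.2 _ φ₂ hφ₂ hr₂
  have hN₁ : (extender (S₁.prod S₂) P₀ (prodRes P₀ φ₁ φ₂)).map (MonoidHom.fst Ω₁ Ω₂) ≤
      extender S₁ (P₀.map (MonoidHom.fst Ω₁ Ω₂)) φ₁ := by
    rintro _ ⟨g, hg, rfl⟩
    obtain ⟨hgS, hgN, h, hhS, hgh⟩ := (mem_extender_iff _).1 hg
    refine (mem_extender_iff _).2
      ⟨(Subgroup.mem_prod.1 hgS).1, ?_, h.1, (Subgroup.mem_prod.1 hhS).1, ?_⟩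
    · haveI : Finite ↥(P₀.map (MonoidHom.fst Ω₁ Ω₂)) := finite_of_le (map_fst_le_of_le_prod hP₀)
      apply mem_normalizer_of_finite_of_conj_mem
      rintro _ ⟨x, hx, rfl⟩
      exact ⟨g * x * g⁻¹, ((Subgroup.mem_normalizer_iff.1 hgN) x).1 hx, rfl⟩
    · rintro ⟨_, x, hx, rfl⟩ hx₁
      have hgx : g * x * g⁻¹ ∈ P₀ := ((Subgroup.mem_normalizer_iff.1 hgN) x).1 hx
      exact congrArg Prod.fst (hgh ⟨x, hx⟩ hgx)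
  have hN₂ : (extender (S₁.prod S₂) P₀ (prodRes P₀ φ₁ φ₂)).map (MonoidHom.snd Ω₁ Ω₂) ≤
      extender S₂ (P₀.map (MonoidHom.snd Ω₁ Ω₂)) φ₂ := by
    rintro _ ⟨g, hg, rfl⟩
    obtain ⟨hgS, hgN, h, hhS, hgh⟩ := (mem_extender_iff _).1 hg
    refine (mem_extender_iff _).2
      ⟨(Subgroup.mem_prod.1 hgS).2, ?_, h.2, (Subgroup.mem_prod.1 hhS).2, ?_⟩
    · haveI : Finite ↥(P₀.map (MonoidHom.snd Ω₁ Ω₂)) := finite_of_le (map_snd_le_of_le_prod hP₀)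
      apply mem_normalizer_of_finite_of_conj_mem
      rintro _ ⟨x, hx, rfl⟩
      exact ⟨g * x * g⁻¹, ((Subgroup.mem_normalizer_iff.1 hgN) x).1 hx, rfl⟩
    · rintro ⟨_, x, hx, rfl⟩ hx₁
      have hgx : g * x * g⁻¹ ∈ P₀ := ((Subgroup.mem_normalizer_iff.1 hgN) x).1 hx
      exact congrArg Prod.snd (hgh ⟨x, hx⟩ hgx)
  have hNS : extender (S₁.prod S₂) P₀ (prodRes P₀ φ₁ φ₂) ≤ S₁.prod S₂ :=
    (extender_le_normalizerIn _ _ _).trans (normalizerIn_le _ _)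
  refine ⟨prodRes (extender (S₁.prod S₂) P₀ (prodRes P₀ φ₁ φ₂))
    (ψ₁.comp (Subgroup.inclusion hN₁)) (ψ₂.comp (Subgroup.inclusion hN₂)), ?_, ?_⟩
  · exact (isProduct_mem_iff hE _ _).2
      ⟨hNS, _, res_mem F₁ hψ₁ hN₁, _, res_mem F₂ hψ₂ hN₂, rfl⟩
  · intro x hxP hxN
    refine Prod.ext ?_ ?_
    · exact hψφ₁ x.1 ⟨x, hxP, rfl⟩ (hN₁ ⟨x, hxN, rfl⟩)
    · exact hψφ₂ x.2 ⟨x, hxP, rfl⟩ (hN₂ ⟨x, hxN, rfl⟩)


variable (F₁ F₂)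

/-- the pairs of automorphisms of the system stabilizing the subgroup `P`. -/
def pairStab (Q₁ : Subgroup Ω₁) (Q₂ : Subgroup Ω₂) (P : Subgroup (Ω₁ × Ω₂)) :
    Subgroup (↥(F₁.autGroup Q₁) × ↥(F₂.autGroup Q₂)) where
  carrier := {a | ∀ (x₁ : Q₁) (x₂ : Q₂), ((x₁ : Ω₁), (x₂ : Ω₂)) ∈ P ↔
    ((((a.1 : MulAut Q₁) x₁ : Q₁) : Ω₁), (((a.2 : MulAut Q₂) x₂ : Q₂) : Ω₂)) ∈ P}
  one_mem' := fun x₁ x₂ => Iff.rfl
  mul_mem' := by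
    intro a b ha hb x₁ x₂
    exact (hb x₁ x₂).trans (ha _ _)
  inv_mem' := by
    intro a ha x₁ x₂
    have h := ha (((a.1 : MulAut Q₁)⁻¹) x₁) (((a.2 : MulAut Q₂)⁻¹) x₂)
    rw [MulAut.apply_inv_self, MulAut.apply_inv_self] at h
    exact h.symm

theorem mem_pairStab (Q₁ : Subgroup Ω₁) (Q₂ : Subgroup Ω₂) (P : Subgroup (Ω₁ × Ω₂))
    (a : ↥(F₁.autGroup Q₁) × ↥(F₂.autGroup Q₂)) :
    a ∈ pairStab F₁ F₂ Q₁ Q₂ P ↔ ∀ (x₁ : Q₁) (x₂ : Q₂), ((x₁ : Ω₁), (x₂ : Ω₂)) ∈ P ↔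
      ((((a.1 : MulAut Q₁) x₁ : Q₁) : Ω₁), (((a.2 : MulAut Q₂) x₂ : Q₂) : Ω₂)) ∈ P := Iff.rfl

/-- the automorphism of `P` induced by a stabilizing pair. -/
def pairAut (Q₁ : Subgroup Ω₁) (Q₂ : Subgroup Ω₂) (P : Subgroup (Ω₁ × Ω₂))
    (h₁ : ∀ y ∈ P, y.1 ∈ Q₁) (h₂ : ∀ y ∈ P, y.2 ∈ Q₂) :
    ↥(pairStab F₁ F₂ Q₁ Q₂ P) →* MulAut ↥P :=
  letI : MulDistribMulAction ↥(pairStab F₁ F₂ Q₁ Q₂ P) ↥P :=
    { smul := fun a y => ⟨((((a.1.1 : MulAut Q₁) ⟨y.1.1, h₁ _ y.2⟩ : Q₁) : Ω₁),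
        (((a.1.2 : MulAut Q₂) ⟨y.1.2, h₂ _ y.2⟩ : Q₂) : Ω₂)),
        (a.2 ⟨y.1.1, h₁ _ y.2⟩ ⟨y.1.2, h₂ _ y.2⟩).1 y.2⟩
      one_smul := fun y => rfl
      mul_smul := fun a b y => rfl
      smul_mul := fun a y z => by
        apply Subtype.ext
        refine Prod.ext ?_ ?_
        · have e : (⟨(y.1 * z.1).1, h₁ _ (y * z).2⟩ : Q₁) =
              ⟨y.1.1, h₁ _ y.2⟩ * ⟨z.1.1, h₁ _ z.2⟩ := rfl
          show (((a.1.1 : MulAut Q₁) ⟨(y.1 * z.1).1, h₁ _ (y * z).2⟩ : Q₁) : Ω₁) =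
            (((a.1.1 : MulAut Q₁) ⟨y.1.1, h₁ _ y.2⟩ : Q₁) : Ω₁) *
              (((a.1.1 : MulAut Q₁) ⟨z.1.1, h₁ _ z.2⟩ : Q₁) : Ω₁)
          rw [e, map_mul]
          rfl
        · have e : (⟨(y.1 * z.1).2, h₂ _ (y * z).2⟩ : Q₂) =
              ⟨y.1.2, h₂ _ y.2⟩ * ⟨z.1.2, h₂ _ z.2⟩ := rfl
          show (((a.1.2 : MulAut Q₂) ⟨(y.1 * z.1).2, h₂ _ (y * z).2⟩ : Q₂) : Ω₂) =
            (((a.1.2 : MulAut Q₂) ⟨y.1.2, h₂ _ y.2⟩ : Q₂) : Ω₂) *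
              (((a.1.2 : MulAut Q₂) ⟨z.1.2, h₂ _ z.2⟩ : Q₂) : Ω₂)
          rw [e, map_mul]
          rfl
      smul_one := fun a => by
        apply Subtype.ext
        refine Prod.ext ?_ ?_
        · show (((a.1.1 : MulAut Q₁) ⟨1, _⟩ : Q₁) : Ω₁) = 1
          have e : (⟨1, h₁ _ (1 : P).2⟩ : Q₁) = 1 := rfl
          rw [e, map_one]
          rfl
        · show (((a.1.2 : MulAut Q₂) ⟨1, _⟩ : Q₂) : Ω₂) = 1
          have e : (⟨1, h₂ _ (1 : P).2⟩ : Q₂) = 1 := rfl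
          rw [e, map_one]
          rfl }
  MulDistribMulAction.toMulAut _ _

theorem pairAut_apply (Q₁ : Subgroup Ω₁) (Q₂ : Subgroup Ω₂) (P : Subgroup (Ω₁ × Ω₂))
    (h₁ : ∀ y ∈ P, y.1 ∈ Q₁) (h₂ : ∀ y ∈ P, y.2 ∈ Q₂) (a : ↥(pairStab F₁ F₂ Q₁ Q₂ P)) (y : P) :
    ((pairAut F₁ F₂ Q₁ Q₂ P h₁ h₂ a y : P) : Ω₁ × Ω₂) =
      ((((a.1.1 : MulAut Q₁) ⟨y.1.1, h₁ _ y.2⟩ : Q₁) : Ω₁),
        (((a.1.2 : MulAut Q₂) ⟨y.1.2, h₂ _ y.2⟩ : Q₂) : Ω₂)) := rfl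


variable {F₁ F₂}

theorem isPGroup_prod_of {p : ℕ} (hS₁ : IsPGroup p S₁) (hS₂ : IsPGroup p S₂) :
    IsPGroup p ↥(S₁.prod S₂) := by
  rintro ⟨⟨a, b⟩, ha, hb⟩
  obtain ⟨k, hk⟩ := hS₁ ⟨a, ha⟩
  obtain ⟨l, hl⟩ := hS₂ ⟨b, hb⟩
  refine ⟨k + l, Subtype.ext (Prod.ext ?_ ?_)⟩
  · have h1 : a ^ p ^ k = 1 := congrArg Subtype.val hk
    show a ^ p ^ (k + l) = 1
    rw [pow_add, pow_mul, h1, one_pow]
  · have h1 : b ^ p ^ l = 1 := congrArg Subtype.val hl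
    show b ^ p ^ (k + l) = 1
    rw [pow_add, mul_comm, pow_mul, h1, one_pow]

/-- conjugating a subgroup whose projections are fully automized to a fully automized one. -/
theorem exists_conj_fullyAutomized [Finite S₁] [Finite S₂] (p : ℕ) [Fact p.Prime]
    (hS₁ : IsPGroup p S₁) (hS₂ : IsPGroup p S₂)
    (hE : IsProductSystem F₁ F₂ E) {P : Subgroup (Ω₁ × Ω₂)} (hP : P ≤ S₁.prod S₂)
    (hfa₁ : F₁.IsFullyAutomized p (P.map (MonoidHom.fst Ω₁ Ω₂)))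
    (hfa₂ : F₂.IsFullyAutomized p (P.map (MonoidHom.snd Ω₁ Ω₂))) :
    ∃ P' : Subgroup (Ω₁ × Ω₂), E.IsConj P P' ∧
      P'.map (MonoidHom.fst Ω₁ Ω₂) = P.map (MonoidHom.fst Ω₁ Ω₂) ∧
      P'.map (MonoidHom.snd Ω₁ Ω₂) = P.map (MonoidHom.snd Ω₁ Ω₂) ∧
      E.IsFullyAutomized p P' := by
  have hQ₁S : P.map (MonoidHom.fst Ω₁ Ω₂) ≤ S₁ := map_fst_le_of_le_prod hP
  have hQ₂S : P.map (MonoidHom.snd Ω₁ Ω₂) ≤ S₂ := map_snd_le_of_le_prod hP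
  haveI : Finite ↥(F₁.autGroup (P.map (MonoidHom.fst Ω₁ Ω₂))) := finite_autGroup F₁ hQ₁S
  haveI : Finite ↥(F₂.autGroup (P.map (MonoidHom.snd Ω₁ Ω₂))) := finite_autGroup F₂ hQ₂S
  obtain ⟨R₁, hR₁⟩ := hfa₁.2
  obtain ⟨R₂, hR₂⟩ := hfa₂.2
  obtain ⟨T, hT⟩ := exists_sylow_prod R₁ R₂
  obtain ⟨β, hβ⟩ := exists_conj_inf_sylow T
    (pairStab F₁ F₂ (P.map (MonoidHom.fst Ω₁ Ω₂)) (P.map (MonoidHom.snd Ω₁ Ω₂)) P)
  have hβ₁ : (P.map (MonoidHom.fst Ω₁ Ω₂)).subtype.comp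
      (β.1 : MulAut ↥(P.map (MonoidHom.fst Ω₁ Ω₂))).toMonoidHom ∈
        F₁.Hom (P.map (MonoidHom.fst Ω₁ Ω₂)) := (mem_autGroup_iff F₁ hQ₁S _).1 β.1.2
  have hβ₂ : (P.map (MonoidHom.snd Ω₁ Ω₂)).subtype.comp
      (β.2 : MulAut ↥(P.map (MonoidHom.snd Ω₁ Ω₂))).toMonoidHom ∈
        F₂.Hom (P.map (MonoidHom.snd Ω₁ Ω₂)) := (mem_autGroup_iff F₂ hQ₂S _).1 β.2.2
  obtain ⟨φ, hφdef⟩ : ∃ φ, φ = prodRes P
      ((P.map (MonoidHom.fst Ω₁ Ω₂)).subtype.comp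
        (β.1 : MulAut ↥(P.map (MonoidHom.fst Ω₁ Ω₂))).toMonoidHom)
      ((P.map (MonoidHom.snd Ω₁ Ω₂)).subtype.comp
        (β.2 : MulAut ↥(P.map (MonoidHom.snd Ω₁ Ω₂))).toMonoidHom) := ⟨_, rfl⟩
  have hφ : φ ∈ E.Hom P := by
    rw [hφdef]
    exact (isProduct_mem_iff hE P _).2 ⟨hP, _, hβ₁, _, hβ₂, rfl⟩
  have hφapp : ∀ (y : Ω₁ × Ω₂) (hy : y ∈ P), φ ⟨y, hy⟩ =
      ((((β.1 : MulAut ↥(P.map (MonoidHom.fst Ω₁ Ω₂))) ⟨y.1, ⟨y, hy, rfl⟩⟩ :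
          ↥(P.map (MonoidHom.fst Ω₁ Ω₂))) : Ω₁),
        (((β.2 : MulAut ↥(P.map (MonoidHom.snd Ω₁ Ω₂))) ⟨y.2, ⟨y, hy, rfl⟩⟩ :
          ↥(P.map (MonoidHom.snd Ω₁ Ω₂))) : Ω₂)) := by
    intro y hy
    rw [hφdef]
    rfl
  have hP'S : φ.range ≤ S₁.prod S₂ := hom_range_le E hφ
  have hmem : ∀ (x₁ : ↥(P.map (MonoidHom.fst Ω₁ Ω₂))) (x₂ : ↥(P.map (MonoidHom.snd Ω₁ Ω₂))),
      ((x₁ : Ω₁), (x₂ : Ω₂)) ∈ P ↔
        ((((β.1 : MulAut ↥(P.map (MonoidHom.fst Ω₁ Ω₂))) x₁ :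
            ↥(P.map (MonoidHom.fst Ω₁ Ω₂))) : Ω₁),
          (((β.2 : MulAut ↥(P.map (MonoidHom.snd Ω₁ Ω₂))) x₂ :
            ↥(P.map (MonoidHom.snd Ω₁ Ω₂))) : Ω₂)) ∈ φ.range := by
    intro x₁ x₂
    constructor
    · intro h
      exact ⟨⟨(x₁.1, x₂.1), h⟩, hφapp _ h⟩
    · rintro ⟨⟨y, hy⟩, hyx⟩
      rw [hφapp y hy] at hyx
      have e1 : (⟨y.1, ⟨y, hy, rfl⟩⟩ : ↥(P.map (MonoidHom.fst Ω₁ Ω₂))) = x₁ :=
        (β.1 : MulAut ↥(P.map (MonoidHom.fst Ω₁ Ω₂))).injective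
          (Subtype.ext (congrArg Prod.fst hyx))
      have e2 : (⟨y.2, ⟨y, hy, rfl⟩⟩ : ↥(P.map (MonoidHom.snd Ω₁ Ω₂))) = x₂ :=
        (β.2 : MulAut ↥(P.map (MonoidHom.snd Ω₁ Ω₂))).injective
          (Subtype.ext (congrArg Prod.snd hyx))
      have e3 : y = ((x₁ : Ω₁), (x₂ : Ω₂)) :=
        Prod.ext (congrArg Subtype.val e1) (congrArg Subtype.val e2)
      rw [← e3]
      exact hy
  have hP'1 : ∀ y ∈ φ.range, y.1 ∈ P.map (MonoidHom.fst Ω₁ Ω₂) := by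
    rintro _ ⟨⟨x, hx⟩, rfl⟩
    rw [hφapp x hx]
    exact Subtype.property _
  have hP'2 : ∀ y ∈ φ.range, y.2 ∈ P.map (MonoidHom.snd Ω₁ Ω₂) := by
    rintro _ ⟨⟨x, hx⟩, rfl⟩
    rw [hφapp x hx]
    exact Subtype.property _
  have hm₁ : φ.range.map (MonoidHom.fst Ω₁ Ω₂) = P.map (MonoidHom.fst Ω₁ Ω₂) := by
    apply le_antisymm
    · rintro _ ⟨y, hy, rfl⟩
      exact hP'1 y hy
    · intro x₁ hx₁
      obtain ⟨y, hy, hyw⟩ :=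
        ((β.1 : MulAut ↥(P.map (MonoidHom.fst Ω₁ Ω₂)))⁻¹ ⟨x₁, hx₁⟩).2
      refine ⟨φ ⟨y, hy⟩, ⟨⟨y, hy⟩, rfl⟩, ?_⟩
      rw [hφapp y hy]
      have e : (⟨y.1, ⟨y, hy, rfl⟩⟩ : ↥(P.map (MonoidHom.fst Ω₁ Ω₂))) =
          (β.1 : MulAut ↥(P.map (MonoidHom.fst Ω₁ Ω₂)))⁻¹ ⟨x₁, hx₁⟩ := Subtype.ext hyw
      show (((β.1 : MulAut ↥(P.map (MonoidHom.fst Ω₁ Ω₂))) ⟨y.1, ⟨y, hy, rfl⟩⟩ :
          ↥(P.map (MonoidHom.fst Ω₁ Ω₂))) : Ω₁) = x₁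
      rw [e, MulAut.apply_inv_self]
  have hm₂ : φ.range.map (MonoidHom.snd Ω₁ Ω₂) = P.map (MonoidHom.snd Ω₁ Ω₂) := by
    apply le_antisymm
    · rintro _ ⟨y, hy, rfl⟩
      exact hP'2 y hy
    · intro x₂ hx₂
      obtain ⟨y, hy, hyw⟩ :=
        ((β.2 : MulAut ↥(P.map (MonoidHom.snd Ω₁ Ω₂)))⁻¹ ⟨x₂, hx₂⟩).2
      refine ⟨φ ⟨y, hy⟩, ⟨⟨y, hy⟩, rfl⟩, ?_⟩
      rw [hφapp y hy]
      have e : (⟨y.2, ⟨y, hy, rfl⟩⟩ : ↥(P.map (MonoidHom.snd Ω₁ Ω₂))) =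
          (β.2 : MulAut ↥(P.map (MonoidHom.snd Ω₁ Ω₂)))⁻¹ ⟨x₂, hx₂⟩ := Subtype.ext hyw
      show (((β.2 : MulAut ↥(P.map (MonoidHom.snd Ω₁ Ω₂))) ⟨y.2, ⟨y, hy, rfl⟩⟩ :
          ↥(P.map (MonoidHom.snd Ω₁ Ω₂))) : Ω₂) = x₂
      rw [e, MulAut.apply_inv_self]
  have hB' : pairStab F₁ F₂ (P.map (MonoidHom.fst Ω₁ Ω₂)) (P.map (MonoidHom.snd Ω₁ Ω₂)) φ.range =
      (pairStab F₁ F₂ (P.map (MonoidHom.fst Ω₁ Ω₂)) (P.map (MonoidHom.snd Ω₁ Ω₂)) P).map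
        (MulAut.conj β).toMonoidHom := by
    ext a
    constructor
    · intro ha
      refine ⟨β⁻¹ * a * β, ?_, ?_⟩
      · intro x₁ x₂
        have h1 := hmem x₁ x₂
        have h2 := ha ((β.1 : MulAut ↥(P.map (MonoidHom.fst Ω₁ Ω₂))) x₁)
          ((β.2 : MulAut ↥(P.map (MonoidHom.snd Ω₁ Ω₂))) x₂)
        have h3 := hmem
          ((β.1 : MulAut ↥(P.map (MonoidHom.fst Ω₁ Ω₂)))⁻¹
            ((a.1 : MulAut ↥(P.map (MonoidHom.fst Ω₁ Ω₂)))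
              ((β.1 : MulAut ↥(P.map (MonoidHom.fst Ω₁ Ω₂))) x₁)))
          ((β.2 : MulAut ↥(P.map (MonoidHom.snd Ω₁ Ω₂)))⁻¹
            ((a.2 : MulAut ↥(P.map (MonoidHom.snd Ω₁ Ω₂)))
              ((β.2 : MulAut ↥(P.map (MonoidHom.snd Ω₁ Ω₂))) x₂)))
        rw [MulAut.apply_inv_self, MulAut.apply_inv_self] at h3
        exact h1.trans (h2.trans h3.symm)
      · show β * (β⁻¹ * a * β) * β⁻¹ = a
        group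
    · rintro ⟨b, hb, rfl⟩
      intro y₁ y₂
      have h1 := hmem ((β.1 : MulAut ↥(P.map (MonoidHom.fst Ω₁ Ω₂)))⁻¹ y₁)
        ((β.2 : MulAut ↥(P.map (MonoidHom.snd Ω₁ Ω₂)))⁻¹ y₂)
      rw [MulAut.apply_inv_self, MulAut.apply_inv_self] at h1
      have h2 := hb ((β.1 : MulAut ↥(P.map (MonoidHom.fst Ω₁ Ω₂)))⁻¹ y₁)
        ((β.2 : MulAut ↥(P.map (MonoidHom.snd Ω₁ Ω₂)))⁻¹ y₂)
      have h3 := hmem
        ((b.1 : MulAut ↥(P.map (MonoidHom.fst Ω₁ Ω₂)))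
          ((β.1 : MulAut ↥(P.map (MonoidHom.fst Ω₁ Ω₂)))⁻¹ y₁))
        ((b.2 : MulAut ↥(P.map (MonoidHom.snd Ω₁ Ω₂)))
          ((β.2 : MulAut ↥(P.map (MonoidHom.snd Ω₁ Ω₂)))⁻¹ y₂))
      exact h1.symm.trans (h2.trans h3)
  have hrange : (pairAut F₁ F₂ (P.map (MonoidHom.fst Ω₁ Ω₂)) (P.map (MonoidHom.snd Ω₁ Ω₂))
      φ.range hP'1 hP'2).range = E.autGroup φ.range := by
    apply le_antisymm
    · rintro _ ⟨a, rfl⟩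
      rw [mem_autGroup_iff E hP'S, isProduct_mem_iff hE]
      have ha₁ := (mem_autGroup_iff F₁ hQ₁S _).1 a.1.1.2
      have ha₂ := (mem_autGroup_iff F₂ hQ₂S _).1 a.1.2.2
      refine ⟨hP'S, _, res_mem F₁ ha₁ (le_of_eq hm₁), _, res_mem F₂ ha₂ (le_of_eq hm₂), ?_⟩
      apply MonoidHom.ext
      intro y
      rfl
    · intro α hα
      rw [mem_autGroup_iff E hP'S, isProduct_mem_iff hE] at hα
      obtain ⟨-, ψ₁, hψ₁, ψ₂, hψ₂, hα⟩ := hα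
      have hαy : ∀ y : φ.range, ((α y : φ.range) : Ω₁ × Ω₂) =
          (ψ₁ ⟨y.1.1, ⟨y.1, y.2, rfl⟩⟩, ψ₂ ⟨y.1.2, ⟨y.1, y.2, rfl⟩⟩) :=
        fun y => DFunLike.congr_fun hα y
      obtain ⟨a₁, ha₁, ha₁ψ⟩ := exists_aut_of_hom F₁ hm₁ hψ₁ (by
        rintro ⟨_, y, hy, rfl⟩
        exact ⟨(α ⟨y, hy⟩ : φ.range).1, (α ⟨y, hy⟩).2, congrArg Prod.fst (hαy ⟨y, hy⟩)⟩)
      obtain ⟨a₂, ha₂, ha₂ψ⟩ := exists_aut_of_hom F₂ hm₂ hψ₂ (by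
        rintro ⟨_, y, hy, rfl⟩
        exact ⟨(α ⟨y, hy⟩ : φ.range).1, (α ⟨y, hy⟩).2, congrArg Prod.snd (hαy ⟨y, hy⟩)⟩)
      have hast : ((⟨a₁, ha₁⟩, ⟨a₂, ha₂⟩) :
          ↥(F₁.autGroup (P.map (MonoidHom.fst Ω₁ Ω₂))) ×
            ↥(F₂.autGroup (P.map (MonoidHom.snd Ω₁ Ω₂)))) ∈
          pairStab F₁ F₂ (P.map (MonoidHom.fst Ω₁ Ω₂)) (P.map (MonoidHom.snd Ω₁ Ω₂))
            φ.range := by
        intro x₁ x₂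
        constructor
        · intro h
          have h1 := hαy ⟨_, h⟩
          have e1 := ha₁ψ x₁.1 ⟨_, h, rfl⟩ x₁.2
          have e2 := ha₂ψ x₂.1 ⟨_, h, rfl⟩ x₂.2
          have e3 : (((a₁ x₁ : ↥(P.map (MonoidHom.fst Ω₁ Ω₂))) : Ω₁),
              ((a₂ x₂ : ↥(P.map (MonoidHom.snd Ω₁ Ω₂))) : Ω₂)) =
              ((α ⟨_, h⟩ : φ.range) : Ω₁ × Ω₂) := by
            rw [h1]
            exact Prod.ext e1 e2
          show (((a₁ x₁ : ↥(P.map (MonoidHom.fst Ω₁ Ω₂))) : Ω₁),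
              ((a₂ x₂ : ↥(P.map (MonoidHom.snd Ω₁ Ω₂))) : Ω₂)) ∈ φ.range
          rw [e3]
          exact Subtype.property _
        · intro h
          obtain ⟨w, hw⟩ : ∃ w : φ.range, α w = ⟨_, h⟩ :=
            ⟨α⁻¹ ⟨_, h⟩, MulAut.apply_inv_self _ _ _⟩
          have h1 := hαy w
          rw [hw] at h1
          have e1 := ha₁ψ w.1.1 ⟨w.1, w.2, rfl⟩ (hP'1 _ w.2)
          have e2 := ha₂ψ w.1.2 ⟨w.1, w.2, rfl⟩ (hP'2 _ w.2)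
          have e3 : (⟨w.1.1, hP'1 _ w.2⟩ : ↥(P.map (MonoidHom.fst Ω₁ Ω₂))) = x₁ :=
            a₁.injective (Subtype.ext (e1.trans (congrArg Prod.fst h1).symm))
          have e4 : (⟨w.1.2, hP'2 _ w.2⟩ : ↥(P.map (MonoidHom.snd Ω₁ Ω₂))) = x₂ :=
            a₂.injective (Subtype.ext (e2.trans (congrArg Prod.snd h1).symm))
          have e5 : ((x₁ : Ω₁), (x₂ : Ω₂)) = w.1 :=
            Prod.ext (congrArg Subtype.val e3).symm (congrArg Subtype.val e4).symm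
          rw [e5]
          exact w.2
      refine ⟨⟨_, hast⟩, ?_⟩
      apply MulEquiv.ext
      intro y
      apply Subtype.ext
      rw [pairAut_apply, hαy y]
      exact Prod.ext (ha₁ψ _ _ _) (ha₂ψ _ _ _)
  have hTS : ∀ a ∈ ((T : Subgroup (↥(F₁.autGroup (P.map (MonoidHom.fst Ω₁ Ω₂))) ×
      ↥(F₂.autGroup (P.map (MonoidHom.snd Ω₁ Ω₂))))) ⊓
        pairStab F₁ F₂ (P.map (MonoidHom.fst Ω₁ Ω₂)) (P.map (MonoidHom.snd Ω₁ Ω₂))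
          φ.range).subgroupOf
        (pairStab F₁ F₂ (P.map (MonoidHom.fst Ω₁ Ω₂)) (P.map (MonoidHom.snd Ω₁ Ω₂)) φ.range),
      pairAut F₁ F₂ (P.map (MonoidHom.fst Ω₁ Ω₂)) (P.map (MonoidHom.snd Ω₁ Ω₂))
        φ.range hP'1 hP'2 a ∈ autInducedBy (S₁.prod S₂) φ.range := by
    intro a ha
    obtain ⟨haT, -⟩ := Subgroup.mem_subgroupOf.1 ha
    rw [hT] at haT
    obtain ⟨ha1, ha2⟩ := Subgroup.mem_prod.1 haT
    rw [hR₁] at ha1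
    rw [hR₂] at ha2
    obtain ⟨s₁, hs₁, hs₁a⟩ := (mem_autInducedBy_iff _ _ _).1 (Subgroup.mem_subgroupOf.1 ha1)
    obtain ⟨s₂, hs₂, hs₂a⟩ := (mem_autInducedBy_iff _ _ _).1 (Subgroup.mem_subgroupOf.1 ha2)
    rw [mem_autInducedBy_iff]
    refine ⟨(s₁, s₂), Subgroup.mem_prod.2 ⟨hs₁, hs₂⟩, fun y => ?_⟩
    rw [pairAut_apply]
    exact Prod.ext (hs₁a _) (hs₂a _)
  have hU : ¬ p ∣ (((T : Subgroup (↥(F₁.autGroup (P.map (MonoidHom.fst Ω₁ Ω₂))) ×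
      ↥(F₂.autGroup (P.map (MonoidHom.snd Ω₁ Ω₂))))) ⊓
        pairStab F₁ F₂ (P.map (MonoidHom.fst Ω₁ Ω₂)) (P.map (MonoidHom.snd Ω₁ Ω₂))
          φ.range).subgroupOf
        (pairStab F₁ F₂ (P.map (MonoidHom.fst Ω₁ Ω₂)) (P.map (MonoidHom.snd Ω₁ Ω₂))
          φ.range)).index := by
    rw [hB']
    exact hβ
  have hidx := not_dvd_index_of_range (pairAut F₁ F₂ (P.map (MonoidHom.fst Ω₁ Ω₂))
    (P.map (MonoidHom.snd Ω₁ Ω₂)) φ.range hP'1 hP'2) (autInducedBy (S₁.prod S₂) φ.range)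
    (E.autGroup φ.range) hrange _ hU hTS
  have hpg : IsPGroup p ↥((autInducedBy (S₁.prod S₂) φ.range).subgroupOf
      (E.autGroup φ.range)) :=
    (autInducedBy_isPGroup (isPGroup_prod_of hS₁ hS₂) _).comap_subtype
  exact ⟨φ.range, ⟨φ, hφ, rfl⟩, hm₁, hm₂, hP'S, hpg.toSylow hidx,
    IsPGroup.toSylow_coe hpg hidx⟩

/-- **The product of two saturated fusion systems is saturated.** -/
theorem product_saturated [Finite S₁] [Finite S₂] (p : ℕ) [Fact p.Prime]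
    (hS₁ : IsPGroup p S₁) (hS₂ : IsPGroup p S₂) (hF₁ : F₁.IsSaturated p)
    (hF₂ : F₂.IsSaturated p) (hE : IsProductSystem F₁ F₂ E) : E.IsSaturated p := by
  intro P hP
  obtain ⟨Q₁, ⟨φ₁, hφ₁, hr₁⟩, hfa₁, hrec₁⟩ := hF₁ _ (map_fst_le_of_le_prod hP)
  obtain ⟨Q₂, ⟨φ₂, hφ₂, hr₂⟩, hfa₂, hrec₂⟩ := hF₂ _ (map_snd_le_of_le_prod hP)
  have hφ : prodRes P φ₁ φ₂ ∈ E.Hom P :=
    (isProduct_mem_iff hE P _).2 ⟨hP, φ₁, hφ₁, φ₂, hφ₂, rfl⟩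
  have hP'S : (prodRes P φ₁ φ₂).range ≤ S₁.prod S₂ := hom_range_le E hφ
  have hm₁ : (prodRes P φ₁ φ₂).range.map (MonoidHom.fst Ω₁ Ω₂) = Q₁ := by
    rw [← hr₁, prodRes_range_map_fst]
  have hm₂ : (prodRes P φ₁ φ₂).range.map (MonoidHom.snd Ω₁ Ω₂) = Q₂ := by
    rw [← hr₂, prodRes_range_map_snd]
  rw [← hm₁] at hfa₁ hrec₁
  rw [← hm₂] at hfa₂ hrec₂
  obtain ⟨P'', hconj, e₁, e₂, hfa⟩ := exists_conj_fullyAutomized p hS₁ hS₂ hE hP'S hfa₁ hfa₂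
  rw [← e₁] at hrec₁
  rw [← e₂] at hrec₂
  exact ⟨P'', isConj_trans E ⟨_, hφ, rfl⟩ hconj, hfa,
    product_receptive hE (isConj_le_right E hconj) hrec₁ hrec₂⟩

end prodsys

end Cfsg.Agent.Lib.Helper84
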