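import Mathlib
import Cfsg.Prelude.Def_FusionSystem
import Cfsg.Agent.Lib.Helper84.FusionApps
import Cfsg.Agent.Lib.Helper84.KNormalizer
import Cfsg.Agent.Lib.Helper86.Centric
import Cfsg.Agent.S5097

set_option autoImplicit false

/-!
# Automorphisms fixing a central subgroup

General tools for showing that a subgroup `Z` central in `S` is central in a saturated fusion
system: the maps defined on large subgroups, transport to conjugates, passage to `X C_S(X)`.
-/

namespace Cfsg.Agent.Lib.Helper84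
namespace WCl

open Cfsg Cfsg.FusionSystem
open Cfsg.Agent.Lib.Helper88 (Mor extFun extFun_mem extFun_apply img mor_of_hom hom_of_mor mor_conj mor_id)

variable {Ω : Type*} [Group Ω] {S : Subgroup Ω}

/-- the maps of `F` that lie in `C` whenever their source has order at least `m`. -/
def mixSys [Finite S] (F C : FusionSystem S) (hCF : ∀ P, C.Hom P ⊆ F.Hom P) (m : ℕ) :
    FusionSystem S where
  Hom P := {φ | φ ∈ F.Hom P ∧ (m ≤ Nat.card P → φ ∈ C.Hom P)}
  le_of_mem h := F.le_of_mem h.1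
  injective_of_mem h := F.injective_of_mem h.1
  conj_mem hP hg := ⟨F.conj_mem hP hg, fun _ => C.conj_mem hP hg⟩
  comp_mem := by
    rintro P Q φ ψ ⟨hφ, hφ'⟩ ⟨hψ, hψ'⟩ h
    refine ⟨F.comp_mem hφ hψ h, fun hm => ?_⟩
    have hQS : Q ≤ S := hom_le F hψ
    have : Finite Q := finite_of_le hQS
    have hcard : Nat.card P ≤ Nat.card Q :=
      Nat.card_le_card_of_injective (φ.codRestrict Q h) (fun a b hab =>
        F.injective_of_mem hφ (congrArg Subtype.val hab))
    exact C.comp_mem (hφ' hm) (hψ' (hm.trans hcard)) h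
  inv_mem := by
    rintro P φ ⟨hφ, hφ'⟩
    by_cases hm : m ≤ Nat.card P
    · obtain ⟨ψ, hψ, hψφ⟩ := C.inv_mem (hφ' hm)
      exact ⟨ψ, ⟨hCF _ hψ, fun _ => hψ⟩, hψφ⟩
    · obtain ⟨ψ, hψ, hψφ⟩ := F.inv_mem hφ
      refine ⟨ψ, ⟨hψ, fun hm' => absurd ?_ hm⟩, hψφ⟩
      have hcard : Nat.card φ.range = Nat.card P :=
        (Nat.card_congr (MonoidHom.ofInjective (F.injective_of_mem hφ)).toEquiv).symm
      rwa [hcard] at hm'

/-- Alperin–Goldschmidt for the maps defined on subgroups of order at least `m`. -/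
theorem hom_mem_of_card_le [Finite S] (p : ℕ) [Fact p.Prime] (hS : IsPGroup p S)
    (F : FusionSystem S) (hF : F.IsSaturated p) (C : FusionSystem S)
    (hCF : ∀ P, C.Hom P ⊆ F.Hom P) (m : ℕ)
    (h : ∀ P : Subgroup Ω, (P = S ∨ F.IsEssential p P) → m ≤ Nat.card P →
      F.autGroup P ≤ C.autGroup P)
    {P : Subgroup Ω} {φ : P →* Ω} (hφ : φ ∈ F.Hom P) (hm : m ≤ Nat.card P) : φ ∈ C.Hom P := by
  have hle : F ≤ mixSys F C hCF m := by
    apply alperin_goldschmidt p hS F hF
    intro P hP α hα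
    have hPS : P ≤ S := by
      rcases hP with hP | hP
      · rw [hP]
      · exact hP.1.1
    rw [mem_autGroup_iff _ hPS]
    exact ⟨(mem_autGroup_iff F hPS α).1 hα,
      fun hm => (mem_autGroup_iff C hPS α).1 (h P hP hm hα)⟩
  exact (hle P hφ).2 hm

theorem centralizerIn_eq_of_central {Z : Subgroup Ω}
    (hZc : ∀ x ∈ Z, ∀ g ∈ S, g * x = x * g) : centralizerIn S Z = S := by
  apply le_antisymm (centralizerIn_le S Z)
  intro g hg
  rw [mem_centralizerIn]
  exact ⟨hg, fun x hx => (hZc x hx g hg).symm⟩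

/-- the centralizer system of a subgroup central in `S`, as a system over `S`. -/
theorem exists_centSys (F : FusionSystem S) {Z : Subgroup Ω} (hZS : Z ≤ S)
    (hZc : ∀ x ∈ Z, ∀ g ∈ S, g * x = x * g) :
    ∃ C : FusionSystem S, ∀ P, C.Hom P = F.centralizerHom Z P := by
  obtain ⟨E₀, hE₀⟩ := Cfsg.Agent.S5097.result F Z hZS
  obtain ⟨E, hE⟩ := exists_system_of_eq (centralizerIn_eq_of_central hZc) E₀
  exact ⟨E, fun P => (hE P).trans (hE₀ P)⟩

/-- every automorphism of `X` in the system fixes the elements of `Z`. -/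
def FixAut (F : FusionSystem S) (Z X : Subgroup Ω) : Prop :=
  ∀ α ∈ F.autGroup X, ∀ x : X, (x : Ω) ∈ Z → ((α x : X) : Ω) = x

theorem FixAut.mor [Finite S] {F : FusionSystem S} {Z X : Subgroup Ω} (h : FixAut F Z X)
    {f : Ω → Ω} (hf : Mor F X f) (hfX : ∀ x ∈ X, f x ∈ X) {x : Ω} (hx : x ∈ X) (hxZ : x ∈ Z) :
    f x = x := by
  obtain ⟨α, hα, hαf⟩ := hf.exists_aut hfX
  rw [← hαf ⟨x, hx⟩]
  exact h α hα ⟨x, hx⟩ hxZ

theorem centSys_fix (F : FusionSystem S) {Z : Subgroup Ω} {C : FusionSystem S}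
    (hC : ∀ P, C.Hom P = F.centralizerHom Z P) {P : Subgroup Ω} {φ : P →* Ω} (hφ : φ ∈ C.Hom P)
    (x : P) (hx : (x : Ω) ∈ Z) : φ x = x := by
  rw [hC] at hφ
  obtain ⟨-, -, -, ψ, -, h1, h2⟩ := hφ
  have h3 := h1 x
  have h4 := h2 ⟨x, hx⟩
  have h5 : Subgroup.inclusion (le_sup_left : P ≤ P ⊔ Z) x =
      Subgroup.inclusion (le_sup_right : Z ≤ P ⊔ Z) ⟨x, hx⟩ := Subtype.ext rfl
  rw [← h3, h5, h4]

theorem centSys_le (F : FusionSystem S) {Z : Subgroup Ω} {C : FusionSystem S}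
    (hC : ∀ P, C.Hom P = F.centralizerHom Z P) (P : Subgroup Ω) : C.Hom P ⊆ F.Hom P := by
  intro φ hφ
  rw [hC] at hφ
  exact hφ.1

theorem autGroup_le_centSys (F : FusionSystem S) {Z : Subgroup Ω}
    (hZc : ∀ x ∈ Z, ∀ g ∈ S, g * x = x * g) {C : FusionSystem S}
    (hC : ∀ P, C.Hom P = F.centralizerHom Z P) {P : Subgroup Ω} (hPS : P ≤ S) (hZP : Z ≤ P)
    (h : FixAut F Z P) : F.autGroup P ≤ C.autGroup P := by
  have hQZ : centralizerIn S Z = S := centralizerIn_eq_of_central hZc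
  intro α hα
  have hαF := (mem_autGroup_iff F hPS α).1 hα
  rw [mem_autGroup_iff C hPS, hC]
  have hsup : P ⊔ Z ≤ P := sup_le le_rfl hZP
  refine ⟨hαF, ?_, ?_, (P.subtype.comp α.toMonoidHom).comp (Subgroup.inclusion hsup),
    res_mem F hαF hsup, fun x => rfl, fun x => ?_⟩
  · rw [hQZ]; exact hPS
  · intro x; rw [hQZ]; exact hom_mem_S F hαF x
  · exact h α hα ⟨x, hZP x.2⟩ x.2

theorem central_le_of_centric (F : FusionSystem S) {Z : Subgroup Ω} (hZS : Z ≤ S)
    (hZc : ∀ x ∈ Z, ∀ g ∈ S, g * x = x * g) {R : Subgroup Ω} (hR : F.IsCentric R) : Z ≤ R := by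
  intro x hx
  apply hR.2 R (isConj_refl F hR.1)
  rw [mem_centralizerIn]
  exact ⟨hZS hx, fun y hy => hZc x hx y (hR.1 hy)⟩

theorem central_le_of_top_or_essential (F : FusionSystem S) {p : ℕ} {Z : Subgroup Ω} (hZS : Z ≤ S)
    (hZc : ∀ x ∈ Z, ∀ g ∈ S, g * x = x * g) {R : Subgroup Ω}
    (hR : R = S ∨ F.IsEssential p R) : Z ≤ R := by
  rcases hR with hR | hR
  · rw [hR]; exact hZS
  · exact central_le_of_centric F hZS hZc hR.1

theorem le_of_top_or_essential (F : FusionSystem S) {p : ℕ} {R : Subgroup Ω}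
    (hR : R = S ∨ F.IsEssential p R) : R ≤ S := by
  rcases hR with hR | hR
  · rw [hR]
  · exact hR.1.1

/-- maps of the system defined on subgroups of order at least `m` fix `Z`, provided the
automorphisms of `S` and of the essential subgroups of order at least `m` do. -/
theorem fix_of_card_le [Finite S] (p : ℕ) [Fact p.Prime] (hS : IsPGroup p S)
    (F : FusionSystem S) (hF : F.IsSaturated p) {Z : Subgroup Ω} (hZS : Z ≤ S)
    (hZc : ∀ x ∈ Z, ∀ g ∈ S, g * x = x * g) (m : ℕ)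
    (h : ∀ P : Subgroup Ω, (P = S ∨ F.IsEssential p P) → m ≤ Nat.card P → FixAut F Z P)
    {P : Subgroup Ω} {φ : P →* Ω} (hφ : φ ∈ F.Hom P) (hm : m ≤ Nat.card P) (x : P)
    (hx : (x : Ω) ∈ Z) : φ x = x := by
  obtain ⟨C, hC⟩ := exists_centSys F hZS hZc
  have h1 : φ ∈ C.Hom P := by
    refine hom_mem_of_card_le p hS F hF C (centSys_le F hC) m ?_ hφ hm
    intro R hR hmR
    exact autGroup_le_centSys F hZc hC (le_of_top_or_essential F hR)
      (central_le_of_top_or_essential F hZS hZc hR) (h R hR hmR)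
  exact centSys_fix F hC h1 x hx

/-- a subgroup central in `S` and fixed by the automorphisms of `S` and of the essential
subgroups is central in the system. -/
theorem isCentral_of_fixAut [Finite S] (p : ℕ) [Fact p.Prime] (hS : IsPGroup p S)
    (F : FusionSystem S) (hF : F.IsSaturated p) {Z : Subgroup Ω} (hZS : Z ≤ S)
    (hZc : ∀ x ∈ Z, ∀ g ∈ S, g * x = x * g)
    (h : ∀ P : Subgroup Ω, (P = S ∨ F.IsEssential p P) → FixAut F Z P) : F.IsCentral Z := by
  obtain ⟨C, hC⟩ := exists_centSys F hZS hZc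
  refine ⟨hZS, fun P φ hφ => ?_⟩
  have h1 : φ ∈ C.Hom P := by
    refine hom_mem_of_card_le p hS F hF C (centSys_le F hC) 0 ?_ hφ (Nat.zero_le _)
    intro R hR _
    exact autGroup_le_centSys F hZc hC (le_of_top_or_essential F hR)
      (central_le_of_top_or_essential F hZS hZc hR) (h R hR)
  rw [hC] at h1
  exact h1.2.2.2

/-- transport along an isomorphism of the system fixing `Z`. -/
theorem fixAut_of_conj (F : FusionSystem S) {Z X P : Subgroup Ω} {e : X ≃* P} (he : IsFIso F e)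
    (hez : ∀ x : X, (x : Ω) ∈ Z → ((e x : P) : Ω) = x) (h : FixAut F Z P) : FixAut F Z X := by
  intro α hα x hx
  have hβ := congr_mem_autGroup F he hα
  have h1 := h _ hβ (e x) (by rw [hez x hx]; exact hx)
  have h2 : MulAut.congr e α (e x) = e (α x) := by
    show e (α (e.symm (e x))) = e (α x)
    rw [MulEquiv.symm_apply_apply]
  rw [h2] at h1
  have h3 : e (α x) = e x := Subtype.ext h1
  exact congrArg Subtype.val (e.injective h3)

/-- passage from a receptive subgroup `X` to `X C_S(X)`. -/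
theorem fixAut_of_sup_centralizer [Finite S] (F : FusionSystem S) {Z X : Subgroup Ω}
    (hrec : F.IsReceptive X) (h : FixAut F Z (X ⊔ centralizerIn S X)) : FixAut F Z X := by
  have hXS : X ≤ S := hrec.1
  intro α hα x hx
  have hθ : X.subtype.comp α.toMonoidHom ∈ F.Hom X := (mem_autGroup_iff F hXS α).1 hα
  have hrange : (X.subtype.comp α.toMonoidHom).range = X := by
    ext y
    constructor
    · rintro ⟨w, rfl⟩; exact (α w).2
    · intro hy; exact ⟨α.symm ⟨y, hy⟩, by simp⟩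
  obtain ⟨ψ, hψ, hψθ⟩ := hrec.2 X _ hθ hrange
  have hXe : X ≤ extender S X (X.subtype.comp α.toMonoidHom) :=
    le_extender hXS _ (fun w => hXS (α w).2)
  have hCe := centralizerIn_le_extender S X (X.subtype.comp α.toMonoidHom)
  have hYe : X ⊔ centralizerIn S X ≤ extender S X (X.subtype.comp α.toMonoidHom) :=
    sup_le hXe hCe
  have hm : Mor F (X ⊔ centralizerIn S X) (extFun ψ) := (mor_of_hom F hψ).res hYe
  have hfX : ∀ w (hw : w ∈ X), extFun ψ w = ((α ⟨w, hw⟩ : X) : Ω) := by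
    intro w hw
    rw [extFun_mem ψ (hXe hw)]
    exact hψθ w hw (hXe hw)
  have hfXX : ∀ w ∈ X, extFun ψ w ∈ X := fun w hw => by rw [hfX w hw]; exact (α ⟨w, hw⟩).2
  have hfC : ∀ c ∈ centralizerIn S X, extFun ψ c ∈ centralizerIn S X := by
    intro c hc
    rw [mem_centralizerIn]
    refine ⟨hm.mem_S (Subgroup.mem_sup_right hc), fun y hy => ?_⟩
    obtain ⟨x', hx', e1⟩ : ∃ x' ∈ X, extFun ψ x' = y :=
      ⟨_, (α.symm ⟨y, hy⟩).2, by rw [hfX _ (α.symm ⟨y, hy⟩).2]; simp⟩
    subst e1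
    have hcomm : x' * c = c * x' := (mem_centralizerIn.1 hc).2 _ hx'
    rw [← hm.map_mul (Subgroup.mem_sup_left hx') (Subgroup.mem_sup_right hc), hcomm,
      hm.map_mul (Subgroup.mem_sup_right hc) (Subgroup.mem_sup_left hx')]
  have hfY : ∀ w ∈ X ⊔ centralizerIn S X, extFun ψ w ∈ X ⊔ centralizerIn S X :=
    mor_sup_mem hm (fun w hw => Subgroup.mem_sup_left (hfXX w hw))
      (fun w hw => Subgroup.mem_sup_right (hfC w hw))
  have h1 := h.mor hm hfY (Subgroup.mem_sup_left x.2) hx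
  rw [hfX x x.2] at h1
  exact h1

/-- `X C_S(X)` is centric when `X` is fully centralized. -/
theorem centric_sup_centralizer [Finite S] (F : FusionSystem S) {X : Subgroup Ω}
    (hfc : F.IsFullyCentralized X) : F.IsCentric (X ⊔ centralizerIn S X) := by
  have hXS := hfc.1
  have hYS : X ⊔ centralizerIn S X ≤ S := sup_le hXS (centralizerIn_le S X)
  refine ⟨hYS, fun Y' hY' => ?_⟩
  obtain ⟨f, hf, himg⟩ := (Helper88.isConj_iff F).1 hY'
  have hfX : Mor F X f := hf.res le_sup_left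
  have hfC : Mor F (centralizerIn S X) f := hf.res le_sup_right
  have hconj : F.IsConj X (img X f) := (Helper88.isConj_iff F).2 ⟨f, hfX, rfl⟩
  have hcard := hfc.2 _ hconj
  have hle : img (centralizerIn S X) f ≤ centralizerIn S (img X f) := by
    intro y hy
    obtain ⟨c, hc, rfl⟩ := hfC.mem_img.1 hy
    rw [mem_centralizerIn]
    refine ⟨hfC.mem_S hc, fun w hw => ?_⟩
    obtain ⟨x, hx, rfl⟩ := hfX.mem_img.1 hw
    rw [← hf.map_mul (Subgroup.mem_sup_left hx) (Subgroup.mem_sup_right hc),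
      (mem_centralizerIn.1 hc).2 x hx,
      hf.map_mul (Subgroup.mem_sup_right hc) (Subgroup.mem_sup_left hx)]
  have : Finite (centralizerIn S (img X f)) := finite_of_le (centralizerIn_le S _)
  have heq : img (centralizerIn S X) f = centralizerIn S (img X f) :=
    Subgroup.eq_of_le_of_card_ge hle (by rw [hfC.card_img]; exact hcard)
  intro g hg
  have hXY : img X f ≤ Y' := by
    rw [← himg]
    intro y hy
    obtain ⟨x, hx, rfl⟩ := hfX.mem_img.1 hy
    exact hf.mem_img.2 ⟨x, Subgroup.mem_sup_left hx, rfl⟩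
  have hg' : g ∈ centralizerIn S (img X f) := by
    rw [mem_centralizerIn] at hg ⊢
    exact ⟨hg.1, fun w hw => hg.2 w (hXY hw)⟩
  rw [← heq] at hg'
  obtain ⟨c, hc, rfl⟩ := hfC.mem_img.1 hg'
  rw [← himg]
  exact hf.mem_img.2 ⟨c, Subgroup.mem_sup_right hc, rfl⟩

theorem normalizerIn_le_sup_centralizer [Finite S] {X : Subgroup Ω} (hXS : X ≤ S) :
    normalizerIn S X ≤ normalizerIn S (X ⊔ centralizerIn S X) := by
  intro g hg
  have hgS : g ∈ S := (mem_normalizerIn.1 hg).1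
  have hgN : g ∈ Subgroup.normalizer (X : Set Ω) := (Subgroup.mem_inf.1 hg).2
  have hYS : X ⊔ centralizerIn S X ≤ S := sup_le hXS (centralizerIn_le S X)
  have : Finite (X ⊔ centralizerIn S X : Subgroup Ω) := finite_of_le hYS
  have : Finite (centralizerIn S X) := finite_of_le (centralizerIn_le S X)
  refine Subgroup.mem_inf.2 ⟨hgS, normalizer_sup_of_finite hgN ?_⟩
  apply mem_normalizer_of_finite_of_conj_mem
  intro c hc
  rw [mem_centralizerIn] at hc ⊢
  refine ⟨S.mul_mem (S.mul_mem hgS hc.1) (S.inv_mem hgS), fun x hx => ?_⟩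
  have hx' : g⁻¹ * x * g ∈ X :=
    ((Subgroup.mem_normalizer_iff.1 hgN) (g⁻¹ * x * g)).2 (by simpa [mul_assoc] using hx)
  have h1 := hc.2 _ hx'
  calc x * (g * c * g⁻¹) = g * ((g⁻¹ * x * g) * c) * g⁻¹ := by group
    _ = g * (c * (g⁻¹ * x * g)) * g⁻¹ := by rw [h1]
    _ = g * c * g⁻¹ * x := by group

end WCl
end Cfsg.Agent.Lib.Helper84
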