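import Mathlib
import Cfsg.Prelude.Def_FusionSystem
import Cfsg.Agent.Lib.Helper84.WCl1
import Cfsg.Agent.Lib.Helper84.NormalizerSys
import Cfsg.Agent.Lib.Helper84.Model3
import Cfsg.Agent.Lib.Helper84.Model5
import Cfsg.Agent.Lib.Helper85.FusionNormal
import Cfsg.Agent.S5096

set_option autoImplicit false

/-!
# Functors with the local centre condition control weak closure of elements

For a functor `W` on finite `p`-groups with `Z(Q) ≤ W(Q)` satisfying the local condition
`O_p(G) ∩ Z(G) = O_p(G) ∩ Z(N_G(W(P)))`, the centre of `N_F(W(S))` is the centre of `F`.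
-/

namespace Cfsg.Agent.Lib.Helper84
namespace WCl

open Cfsg Cfsg.FusionSystem
open Cfsg.Agent.Lib.Helper88 (Mor extFun extFun_mem extFun_apply img mor_of_hom hom_of_mor mor_conj mor_id)

universe u

/-- the hypotheses on the functor `W`. -/
structure WHyp (p : ℕ) [Fact p.Prime] (W : ∀ (Q : Type u) [Group Q], Subgroup Q) : Prop where
  iso : ∀ (Q R : Type u) [Group Q] [Group R] [Finite Q], IsPGroup p Q → ∀ φ : Q ≃* R,
    (W Q).map φ.toMonoidHom = W R
  center_le : ∀ (Q : Type u) [Group Q] [Finite Q], IsPGroup p Q → Subgroup.center Q ≤ W Q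
  loc : ∀ (G : Type u) [Group G] [Finite G] (P : Sylow p G),
    Cfsg.pCore p G ⊓ Subgroup.center G = Cfsg.pCore p G ⊓ (Subgroup.center ↥(Subgroup.normalizer (((W ↥(P : Subgroup G)).map (P : Subgroup G).subtype : Subgroup G) : Set G))).map (Subgroup.normalizer (((W ↥(P : Subgroup G)).map (P : Subgroup G).subtype : Subgroup G) : Set G)).subtype

variable {Ω : Type u} [Group Ω] {S : Subgroup Ω}

/-- the image in the ambient group of `W` of a subgroup. -/
def WSub (W : ∀ (Q : Type u) [Group Q], Subgroup Q) (T : Subgroup Ω) : Subgroup Ω :=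
  (W ↥T).map T.subtype

theorem WSub_le (W : ∀ (Q : Type u) [Group Q], Subgroup Q) (T : Subgroup Ω) : WSub W T ≤ T := by
  rintro _ ⟨w, -, rfl⟩
  exact w.2

theorem WSub_congr (W : ∀ (Q : Type u) [Group Q], Subgroup Q) {T T' : Subgroup Ω} (h : T = T') :
    WSub W T = WSub W T' := by
  subst h; rfl

theorem normalizerIn_le_WSub [Finite S] {p : ℕ} [Fact p.Prime] (hS : IsPGroup p S)
    {W : ∀ (Q : Type u) [Group Q], Subgroup Q} (hW : WHyp p W) {T : Subgroup Ω} (hTS : T ≤ S) :
    normalizerIn S T ≤ normalizerIn S (WSub W T) := by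
  intro g hg
  have hgS : g ∈ S := (mem_normalizerIn.1 hg).1
  have : Finite T := finite_of_le hTS
  have hT : IsPGroup p T := hS.to_le hTS
  have : Finite (WSub W T) := finite_of_le ((WSub_le W T).trans hTS)
  refine Subgroup.mem_inf.2 ⟨hgS, ?_⟩
  apply mem_normalizer_of_finite_of_conj_mem
  rintro _ ⟨w, hw, rfl⟩
  have h1 := hW.iso ↥T ↥T hT (conjN S T ⟨g, hg⟩)
  have h2 : (conjN S T ⟨g, hg⟩) w ∈ (W ↥T).map (conjN S T ⟨g, hg⟩).toMonoidHom := ⟨w, hw, rfl⟩
  rw [h1] at h2
  exact ⟨_, h2, rfl⟩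

theorem card_lt_normalizerIn_WSub [Finite S] {p : ℕ} [Fact p.Prime] (hS : IsPGroup p S)
    {W : ∀ (Q : Type u) [Group Q], Subgroup Q} (hW : WHyp p W) {T : Subgroup Ω} (hTS : T ≤ S)
    (hne : T ≠ S) : Nat.card T < Nat.card (normalizerIn S (WSub W T)) := by
  obtain ⟨g, hg, hgT⟩ := exists_mem_normalizerIn_not_mem hS hTS hne
  have : Finite (normalizerIn S (WSub W T)) := finite_of_le (normalizerIn_le S _)
  exact card_lt_of_le_of_not_mem ((le_normalizerIn hTS).trans (normalizerIn_le_WSub hS hW hTS))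
    (normalizerIn_le_WSub hS hW hTS hg) hgT

/-- maps of a system fix the elements of a central subgroup. -/
theorem central_fix {Ω' : Type*} [Group Ω'] {S' : Subgroup Ω'} (F : FusionSystem S')
    {Z : Subgroup Ω'} (hZ : F.IsCentral Z) {P : Subgroup Ω'} {φ : P →* Ω'} (hφ : φ ∈ F.Hom P)
    (x : P) (hx : (x : Ω') ∈ Z) : φ x = x := by
  obtain ⟨ψ, -, h1, h2⟩ := hZ.2 P φ hφ
  have h3 := h1 x
  have h4 := h2 ⟨x, hx⟩
  have h5 : Subgroup.inclusion (le_sup_left : P ≤ P ⊔ Z) x =
      Subgroup.inclusion (le_sup_right : Z ≤ P ⊔ Z) ⟨x, hx⟩ := Subtype.ext rfl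
  rw [← h3, h5, h4]

/-- automorphisms of `X` in the system are maps of the normalizer system of `X`. -/
theorem aut_mem_normalizerHom {Ω' : Type*} [Group Ω'] {S' : Subgroup Ω'} (F : FusionSystem S')
    {X : Subgroup Ω'} (hXS : X ≤ S') {α : MulAut X} (hα : α ∈ F.autGroup X) :
    X.subtype.comp α.toMonoidHom ∈ F.normalizerHom X X := by
  have hθ : X.subtype.comp α.toMonoidHom ∈ F.Hom X := (mem_autGroup_iff F hXS α).1 hα
  have hsup : X ⊔ X ≤ X := sup_le le_rfl le_rfl
  refine ⟨hθ, le_normalizerIn hXS, fun w => le_normalizerIn hXS (α w).2,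
    (X.subtype.comp α.toMonoidHom).comp (Subgroup.inclusion hsup), res_mem F hθ hsup,
    fun w => rfl, ?_⟩
  ext y
  constructor
  · rintro ⟨w, -, rfl⟩
    exact (α _).2
  · intro hy
    refine ⟨Subgroup.inclusion le_sup_left (α.symm ⟨y, hy⟩),
      Subgroup.mem_subgroupOf.2 (α.symm ⟨y, hy⟩).2, ?_⟩
    have h1 : Subgroup.inclusion hsup (Subgroup.inclusion le_sup_left (α.symm ⟨y, hy⟩)) =
        α.symm ⟨y, hy⟩ := Subtype.ext rfl
    show ((α (Subgroup.inclusion hsup (Subgroup.inclusion le_sup_left (α.symm ⟨y, hy⟩))) : X) : Ω')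
      = y
    rw [h1]
    simp

/-- the core step: a fully normalized centric subgroup, through the model of its normalizer
system and the local condition on `W`. -/
theorem fixAut_of_fn_centric [Finite S] {p : ℕ} [Fact p.Prime] (hS : IsPGroup p S)
    (F : FusionSystem S) (hF : F.IsSaturated p) {W : ∀ (Q : Type u) [Group Q], Subgroup Q}
    (hW : WHyp p W) {Z : Subgroup Ω} (hZS : Z ≤ S) (hZc : ∀ x ∈ Z, ∀ g ∈ S, g * x = x * g)
    {X : Subgroup Ω} (hfn : F.IsFullyNormalized X) (hXc : F.IsCentric X)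
    (hWT : FixAut F Z (WSub W (normalizerIn S X))) : FixAut F Z X := by
  classical
  have hXS : X ≤ S := hfn.1
  have hTS : normalizerIn S X ≤ S := normalizerIn_le S X
  have hXT : X ≤ normalizerIn S X := le_normalizerIn hXS
  have hfinT : Finite (normalizerIn S X) := finite_of_le hTS
  have hT : IsPGroup p (normalizerIn S X) := hS.to_le hTS
  obtain ⟨E, hE⟩ := Cfsg.Agent.S5096.result F X hXS
  have hEsat := normalizerSystem_saturated p hS F hF X hfn E hE
  have hEn := normalizerSystem_isNormal F hXS E hE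
  have hEc := normalizerSystem_isCentric F hXc E hE
  obtain ⟨L, instL, ι, hL⟩ := Model.exists_model p hT E ⟨hEsat, X, hEn, hEc⟩
  obtain ⟨hUn, hUc⟩ := Model.pre_pCore_normal_centric hL
  obtain ⟨hfinL, ⟨hinj, hr⟩, ⟨P, hP⟩, -⟩ := hL
  have hZX : Z ≤ X := central_le_of_centric F hZS hZc hXc
  have hZT : Z ≤ normalizerIn S X := hZX.trans hXT
  -- images of elements of `Z` lie in `O_p(L)`
  have hpc : ∀ x (hx : x ∈ Z), ι ⟨x, hZT hx⟩ ∈ pCore p L := by
    intro x hx
    have h1 : x ∈ Helper85.preSub ι (pCore p L) := by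
      apply hUc.2 _ (isConj_refl E hUc.1)
      rw [mem_centralizerIn]
      exact ⟨hZT hx, fun y hy => hZc x hx y (hTS (hUc.1 hy))⟩
    exact (Helper85.mem_preSub.1 h1).2
  -- elements of `Z` lie in `W(T)`
  have hZW : ∀ x (hx : x ∈ Z), (⟨x, hZT hx⟩ : normalizerIn S X) ∈ W ↥(normalizerIn S X) := by
    intro x hx
    apply hW.center_le ↥(normalizerIn S X) hT
    rw [Subgroup.mem_center_iff]
    intro g
    apply Subtype.ext
    exact hZc x hx g (hTS g.2)
  -- `W` of the Sylow subgroup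
  have hWP : (W ↥(P : Subgroup L)).map (P : Subgroup L).subtype =
      (W ↥(normalizerIn S X)).map ι := by
    let e : ↥(normalizerIn S X) ≃* ↥(P : Subgroup L) :=
      (MonoidHom.ofInjective hinj).trans (MulEquiv.subgroupCongr hP.symm)
    have h1 := hW.iso ↥(normalizerIn S X) ↥(P : Subgroup L) hT e
    rw [← h1, Subgroup.map_map]
    rfl
  have hWle : WSub W (normalizerIn S X) ≤ normalizerIn S X := WSub_le W _
  have hcomm : ∀ x (hx : x ∈ Z), ∀ g : L,
      g ∈ Subgroup.normalizer (((W ↥(normalizerIn S X)).map ι : Subgroup L) : Set L) →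
      g * ι ⟨x, hZT hx⟩ = ι ⟨x, hZT hx⟩ * g := by
    intro x hx g hg
    have hg' : ∀ w : WSub W (normalizerIn S X),
        g * ι ⟨w, hWle w.2⟩ * g⁻¹ ∈ (W ↥(normalizerIn S X)).map ι := by
      intro w
      obtain ⟨w', hw', hww⟩ := w.2
      have h1 : ι ⟨w, hWle w.2⟩ ∈ (W ↥(normalizerIn S X)).map ι := by
        refine ⟨w', hw', ?_⟩
        congr 1
        exact Subtype.ext hww
      exact ((Subgroup.mem_normalizer_iff.1 hg) _).1 h1
    obtain ⟨ψ, hψT, hψ⟩ := Helper85.exists_lift_conj hinj hWle g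
      (fun w => Subgroup.map_le_range _ _ (hg' w))
    have hψE : ψ ∈ E.Hom (WSub W (normalizerIn S X)) := (hr _ hWle ψ hψT).2 ⟨g, hψ⟩
    have hψF : ψ ∈ F.Hom (WSub W (normalizerIn S X)) := by
      rw [hE] at hψE; exact hψE.1
    have hψW : ∀ w : WSub W (normalizerIn S X), ψ w ∈ WSub W (normalizerIn S X) := by
      intro w
      have h1 := hg' w
      rw [← hψ w] at h1
      obtain ⟨w', hw', hww⟩ := h1
      have h2 : w' = ⟨ψ w, hψT w⟩ := hinj hww
      exact ⟨w', hw', by rw [h2]; rfl⟩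
    have hxW : x ∈ WSub W (normalizerIn S X) := ⟨_, hZW x hx, rfl⟩
    have h3 := hWT.mor (mor_of_hom F hψF)
      (fun w hw => by rw [extFun_mem ψ hw]; exact hψW ⟨w, hw⟩) hxW hx
    rw [extFun_mem ψ hxW] at h3
    have h5 : (⟨ψ ⟨x, hxW⟩, hψT ⟨x, hxW⟩⟩ : normalizerIn S X) = ⟨x, hZT hx⟩ := Subtype.ext h3
    have h4 : ι ⟨x, hZT hx⟩ = g * ι ⟨x, hZT hx⟩ * g⁻¹ := by
      have h6 := hψ ⟨x, hxW⟩
      rw [h5] at h6
      exact h6
    calc g * ι ⟨x, hZT hx⟩ = (g * ι ⟨x, hZT hx⟩ * g⁻¹) * g := by group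
      _ = ι ⟨x, hZT hx⟩ * g := by rw [← h4]
  have hcen : ∀ x (hx : x ∈ Z), ι ⟨x, hZT hx⟩ ∈ Subgroup.center L := by
    intro x hx
    have hloc := hW.loc L P
    rw [hWP] at hloc
    have hmem : ι ⟨x, hZT hx⟩ ∈ pCore p L ⊓ Subgroup.center L := by
      rw [hloc]
      refine ⟨hpc x hx, ?_⟩
      have hxWP : ι ⟨x, hZT hx⟩ ∈ (W ↥(normalizerIn S X)).map ι := ⟨_, hZW x hx, rfl⟩
      refine ⟨⟨ι ⟨x, hZT hx⟩, Subgroup.le_normalizer hxWP⟩, ?_, rfl⟩
      show _ ∈ Subgroup.center _
      rw [Subgroup.mem_center_iff]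
      intro g
      exact Subtype.ext (hcomm x hx g g.2)
    exact hmem.2
  intro α hα x hx
  have hθT : ∀ w : X, (X.subtype.comp α.toMonoidHom) w ∈ normalizerIn S X :=
    fun w => hXT (α w).2
  have hθE : X.subtype.comp α.toMonoidHom ∈ E.Hom X := by
    rw [hE]
    exact aut_mem_normalizerHom F hXS hα
  obtain ⟨g, hg⟩ := (hr X hXT _ hθT).1 hθE
  have h1 := hg x
  have h2 : ι ⟨(x : Ω), hXT x.2⟩ ∈ Subgroup.center L := hcen x hx
  have h3 : g * ι ⟨(x : Ω), hXT x.2⟩ * g⁻¹ = ι ⟨(x : Ω), hXT x.2⟩ := by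
    rw [Subgroup.mem_center_iff.1 h2 g]
    group
  rw [h3] at h1
  have h4 := congrArg Subtype.val (hinj h1)
  exact h4

section induction

variable [Finite S] {p : ℕ} [Fact p.Prime]

/-- moving to a fully normalized conjugate. -/
theorem exists_fn_conj (hS : IsPGroup p S) (F : FusionSystem S) (hF : F.IsSaturated p)
    {Z : Subgroup Ω} (hZS : Z ≤ S) (hZc : ∀ x ∈ Z, ∀ g ∈ S, g * x = x * g)
    {X : Subgroup Ω} (hXS : X ≤ S)
    (IH : ∀ Y : Subgroup Ω, Y ≤ S →
      Nat.card (normalizerIn S X) < Nat.card (normalizerIn S Y) → FixAut F Z Y) :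
    ∃ P : Subgroup Ω, F.IsConj X P ∧ F.IsFullyNormalized P ∧ (FixAut F Z P → FixAut F Z X) := by
  by_cases hN : normalizerIn S X = S
  · refine ⟨X, isConj_refl F hXS, ⟨hXS, fun Q _ => ?_⟩, id⟩
    rw [hN]
    exact Subgroup.card_le_of_le (normalizerIn_le S Q)
  · obtain ⟨P, hconj, hfa, hrec, φ, hφ, h1, e, he, hφe⟩ := saturated_data p hS F hF hXS
    refine ⟨P, hconj, fullyNormalized_of_fa_receptive p hS F hfa hrec, fixAut_of_conj F he ?_⟩
    intro x hx
    rw [← hφe x]
    refine fix_of_card_le p hS F hF hZS hZc (Nat.card (normalizerIn S X)) ?_ hφ le_rfl _ hx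
    intro R hR hmR
    have hRS := le_of_top_or_essential F hR
    apply IH R hRS
    by_cases hRe : R = S
    · rw [hRe, KSys.normalizerIn_self]
      exact lt_of_le_of_ne (Subgroup.card_le_of_le (normalizerIn_le S X))
        (fun h => hN (Subgroup.eq_of_le_of_card_ge (normalizerIn_le S X) (le_of_eq h.symm)))
    · obtain ⟨g, hg, hgR⟩ := exists_mem_normalizerIn_not_mem hS hRS hRe
      have : Finite (normalizerIn S R) := finite_of_le (normalizerIn_le S R)
      exact lt_of_le_of_lt hmR (card_lt_of_le_of_not_mem (le_normalizerIn hRS) hg hgR)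

theorem step_fnc (hS : IsPGroup p S) (F : FusionSystem S) (hF : F.IsSaturated p)
    {W : ∀ (Q : Type u) [Group Q], Subgroup Q} (hW : WHyp p W)
    {Z : Subgroup Ω} (hZS : Z ≤ S) (hZc : ∀ x ∈ Z, ∀ g ∈ S, g * x = x * g)
    (hbase : FixAut F Z (WSub W S))
    {X : Subgroup Ω} (hfn : F.IsFullyNormalized X) (hXc : F.IsCentric X)
    (IH : ∀ Y : Subgroup Ω, Y ≤ S →
      Nat.card (normalizerIn S X) < Nat.card (normalizerIn S Y) → FixAut F Z Y) :
    FixAut F Z X := by
  apply fixAut_of_fn_centric hS F hF hW hZS hZc hfn hXc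
  by_cases hN : normalizerIn S X = S
  · rw [WSub_congr W hN]; exact hbase
  · have hTS := normalizerIn_le S X
    exact IH _ ((WSub_le W _).trans hTS) (card_lt_normalizerIn_WSub hS hW hTS hN)

theorem step_c (hS : IsPGroup p S) (F : FusionSystem S) (hF : F.IsSaturated p)
    {W : ∀ (Q : Type u) [Group Q], Subgroup Q} (hW : WHyp p W)
    {Z : Subgroup Ω} (hZS : Z ≤ S) (hZc : ∀ x ∈ Z, ∀ g ∈ S, g * x = x * g)
    (hbase : FixAut F Z (WSub W S))
    {X : Subgroup Ω} (hXc : F.IsCentric X)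
    (IH : ∀ Y : Subgroup Ω, Y ≤ S →
      Nat.card (normalizerIn S X) < Nat.card (normalizerIn S Y) → FixAut F Z Y) :
    FixAut F Z X := by
  obtain ⟨P, hconj, hfn, himp⟩ := exists_fn_conj hS F hF hZS hZc hXc.1 IH
  apply himp
  have hPc := Helper86.isCentric_of_isConj F hXc hconj
  have hle : Nat.card (normalizerIn S X) ≤ Nat.card (normalizerIn S P) :=
    hfn.2 X (isConj_symm F hconj)
  exact step_fnc hS F hF hW hZS hZc hbase hfn hPc
    (fun Y hY h => IH Y hY (lt_of_le_of_lt hle h))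

theorem step_fn (hS : IsPGroup p S) (F : FusionSystem S) (hF : F.IsSaturated p)
    {W : ∀ (Q : Type u) [Group Q], Subgroup Q} (hW : WHyp p W)
    {Z : Subgroup Ω} (hZS : Z ≤ S) (hZc : ∀ x ∈ Z, ∀ g ∈ S, g * x = x * g)
    (hbase : FixAut F Z (WSub W S))
    {X : Subgroup Ω} (hfn : F.IsFullyNormalized X)
    (IH : ∀ Y : Subgroup Ω, Y ≤ S →
      Nat.card (normalizerIn S X) < Nat.card (normalizerIn S Y) → FixAut F Z Y) :
    FixAut F Z X := by
  have hXS := hfn.1
  have hfc := fullyCentralized_of_fullyNormalized p hS F hF hfn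
  have hrec := receptive_of_fullyCentralized p hS F hF hfc
  apply fixAut_of_sup_centralizer F hrec
  have hYc := centric_sup_centralizer F hfc
  have : Finite (normalizerIn S (X ⊔ centralizerIn S X)) := finite_of_le (normalizerIn_le S _)
  have hle : Nat.card (normalizerIn S X) ≤ Nat.card (normalizerIn S (X ⊔ centralizerIn S X)) :=
    Subgroup.card_le_of_le (normalizerIn_le_sup_centralizer hXS)
  exact step_c hS F hF hW hZS hZc hbase hYc (fun Y hY h => IH Y hY (lt_of_le_of_lt hle h))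

theorem step (hS : IsPGroup p S) (F : FusionSystem S) (hF : F.IsSaturated p)
    {W : ∀ (Q : Type u) [Group Q], Subgroup Q} (hW : WHyp p W)
    {Z : Subgroup Ω} (hZS : Z ≤ S) (hZc : ∀ x ∈ Z, ∀ g ∈ S, g * x = x * g)
    (hbase : FixAut F Z (WSub W S))
    {X : Subgroup Ω} (hXS : X ≤ S)
    (IH : ∀ Y : Subgroup Ω, Y ≤ S →
      Nat.card (normalizerIn S X) < Nat.card (normalizerIn S Y) → FixAut F Z Y) :
    FixAut F Z X := by
  obtain ⟨P, hconj, hfn, himp⟩ := exists_fn_conj hS F hF hZS hZc hXS IH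
  apply himp
  have hle : Nat.card (normalizerIn S X) ≤ Nat.card (normalizerIn S P) :=
    hfn.2 X (isConj_symm F hconj)
  exact step_fn hS F hF hW hZS hZc hbase hfn (fun Y hY h => IH Y hY (lt_of_le_of_lt hle h))

/-- every automorphism in the system of a subgroup of `S` fixes `Z`. -/
theorem fixAut_all (hS : IsPGroup p S) (F : FusionSystem S) (hF : F.IsSaturated p)
    {W : ∀ (Q : Type u) [Group Q], Subgroup Q} (hW : WHyp p W)
    {Z : Subgroup Ω} (hZS : Z ≤ S) (hZc : ∀ x ∈ Z, ∀ g ∈ S, g * x = x * g)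
    (hbase : FixAut F Z (WSub W S)) : ∀ X : Subgroup Ω, X ≤ S → FixAut F Z X := by
  have key : ∀ n : ℕ, ∀ X : Subgroup Ω, X ≤ S →
      Nat.card S - Nat.card (normalizerIn S X) = n → FixAut F Z X := by
    intro n
    induction n using Nat.strong_induction_on with
    | _ n ih =>
      intro X hXS hn
      apply step hS F hF hW hZS hZc hbase hXS
      intro Y hYS hlt
      have h1 : Nat.card (normalizerIn S Y) ≤ Nat.card S :=
        Subgroup.card_le_of_le (normalizerIn_le S Y)
      exact ih (Nat.card S - Nat.card (normalizerIn S Y)) (by omega) Y hYS rfl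
  exact fun X hXS => key _ X hXS rfl

theorem isCentral_of_W (hS : IsPGroup p S) (F : FusionSystem S) (hF : F.IsSaturated p)
    {W : ∀ (Q : Type u) [Group Q], Subgroup Q} (hW : WHyp p W)
    {Z : Subgroup Ω} (hZS : Z ≤ S) (hZc : ∀ x ∈ Z, ∀ g ∈ S, g * x = x * g)
    (hbase : FixAut F Z (WSub W S)) : F.IsCentral Z :=
  isCentral_of_fixAut p hS F hF hZS hZc
    (fun P hP => fixAut_all hS F hF hW hZS hZc hbase P (le_of_top_or_essential F hP))

/-- a functor with the local centre condition controls weak closure of elements. -/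
theorem center_eq (hS : IsPGroup p S) (F : FusionSystem S) (hF : F.IsSaturated p)
    {W : ∀ (Q : Type u) [Group Q], Subgroup Q} (hW : WHyp p W)
    (N : FusionSystem (normalizerIn S (WSub W S)))
    (hN : F.IsNormalizerSystem (WSub W S) N) : N.center = F.center := by
  have hWS : WSub W S ≤ S := WSub_le W S
  have hTS : normalizerIn S (WSub W S) ≤ S := normalizerIn_le _ _
  have hST : S ≤ normalizerIn S (WSub W S) := by
    have h := normalizerIn_le_WSub hS hW (le_refl S)
    rwa [KSys.normalizerIn_self] at h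
  have hfinT : Finite (normalizerIn S (WSub W S)) := finite_of_le hTS
  have hT : IsPGroup p (normalizerIn S (WSub W S)) := hS.to_le hTS
  have hfnW : F.IsFullyNormalized (WSub W S) :=
    ⟨hWS, fun Q _ => (Subgroup.card_le_of_le (normalizerIn_le S Q)).trans
      (Subgroup.card_le_of_le hST)⟩
  have hNsat := normalizerSystem_saturated p hS F hF _ hfnW N hN
  have hNF : ∀ P, N.Hom P ⊆ F.Hom P := fun P φ hφ => by
    rw [hN] at hφ; exact hφ.1
  apply le_antisymm
  · have hZ := Helper85.isCentral_center N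
    have hZT : N.center ≤ normalizerIn S (WSub W S) := hZ.1
    have hZS : N.center ≤ S := hZT.trans hTS
    have hZc : ∀ x ∈ N.center, ∀ g ∈ S, g * x = x * g := by
      intro x hx g hg
      have h2 : g * x * g⁻¹ = x :=
        central_fix N hZ (N.conj_mem hZT (hST hg)) ⟨x, hx⟩ hx
      calc g * x = (g * x * g⁻¹) * g := by group
        _ = x * g := by rw [h2]
    have hbase : FixAut F N.center (WSub W S) := by
      intro α hα x hx
      have hθN : (WSub W S).subtype.comp α.toMonoidHom ∈ N.Hom (WSub W S) := by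
        rw [hN]
        exact aut_mem_normalizerHom F hWS hα
      exact central_fix N hZ hθN x hx
    exact le_sSup (isCentral_of_W hS F hF hW hZS hZc hbase)
  · have hZ := Helper85.isCentral_center F
    have hZS : F.center ≤ S := hZ.1
    have hZT : F.center ≤ normalizerIn S (WSub W S) := hZS.trans hST
    have hcen : N.IsCentral F.center := by
      apply isCentral_of_forall_conjElt p hT N hNsat hZT
      rintro x hx y ⟨φ, hφ, rfl⟩
      exact central_fix F hZ (hNF _ hφ) ⟨x, Subgroup.mem_zpowers x⟩ hx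
    exact le_sSup hcen

end induction

end WCl
end Cfsg.Agent.Lib.Helper84
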